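import Cfsg.Agent.Lib.Helper5.AbNilPair

set_option autoImplicit false
set_option linter.unusedSectionVars false
set_option linter.style.haveILetI false
open Cfsg
open Cfsg.Agent.Lib.Helper20 Cfsg.Agent.Lib.Helper81 Cfsg.Agent.Lib.Helper80
open Cfsg.Agent.Lib.Helper80.GA

/-! **Nilpotent blocks with abelian defect groups**: `l(B) = 1`, `k(B) = |P|`, all heights zero. -/

namespace Cfsg.Agent.Lib.Helper5

universe u

section Reps

variable {G : Type*} [Group G] [Fintype G] (p : ℕ)

/-- representatives of the conjugacy classes of `p`-elements -/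
theorem exists_pReps : ∃ X : Finset G, (∀ x ∈ X, ∃ k : ℕ, orderOf x = p ^ k) ∧
    ∀ g : G, (∃ k : ℕ, orderOf g = p ^ k) → ∃! x, x ∈ X ∧ IsConj g x := by
  classical
  obtain ⟨rep, hrep⟩ : ∃ rep : ConjClasses G → G, ∀ C, ConjClasses.mk (rep C) = C :=
    ⟨fun C => Quotient.out C, fun C => Quotient.out_eq C⟩
  have hord : ∀ {a b : G}, IsConj a b → orderOf a = orderOf b := by
    intro a b hab
    obtain ⟨c, hc⟩ := isConj_iff.1 hab
    rw [← hc]
    have := orderOf_injective (MulAut.conj c).toMonoidHom (MulAut.conj c).injective a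
    simpa using this.symm
  have hfinC : Finite (ConjClasses G) := inferInstance
  let S : Set G := {x | (∃ k : ℕ, orderOf x = p ^ k) ∧ ∃ C, rep C = x}
  refine ⟨S.toFinite.toFinset, ?_, ?_⟩
  · intro x hx
    exact ((Set.Finite.mem_toFinset _).1 hx).1
  · rintro g ⟨k, hk⟩
    have h1 : IsConj g (rep (ConjClasses.mk g)) :=
      ConjClasses.mk_eq_mk_iff_isConj.1 (hrep _).symm
    refine ⟨rep (ConjClasses.mk g), ⟨(Set.Finite.mem_toFinset _).2
      ⟨⟨k, by rw [← hord h1, hk]⟩, _, rfl⟩, h1⟩, ?_⟩
    rintro y ⟨hy, hgy⟩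
    obtain ⟨_, C, rfl⟩ := (Set.Finite.mem_toFinset _).1 hy
    have : ConjClasses.mk g = C := by
      rw [← hrep C]; exact ConjClasses.mk_eq_mk_iff_isConj.2 hgy
    rw [this]

end Reps

section Local

variable {p : ℕ} [Fact p.Prime] {M : Ideal AlgInt} (hM : IsPModular p M)
  {G : Type*} [Group G] [Fintype G]

include hM in
/-- the blocks of the subsections of a nilpotent block are nilpotent -/
theorem isNilpotentBlock_of_induced {B : Set (IrrCharacter G)} (hnil : IsNilpotentBlock p M B)
    {x : G} (hx : ∃ k : ℕ, orderOf x = p ^ k)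
    {b : Set (IrrCharacter (Subgroup.centralizer ({x} : Set G)))}
    (hind : IsInducedBlock M (Subgroup.centralizer ({x} : Set G)) b B) :
    IsNilpotentBlock p M b := by
  have hQ := isPGroup_zpowers_of_orderOf hx
  have hnil' : NilB p (blkR hM B) := (isNilpotentBlock_iff hM hnil.1).1 hnil
  have key : ∀ (H : Subgroup G) (_ : H = Cn (Subgroup.zpowers x)) (b : Set (IrrCharacter H)),
      IsInducedBlock M H b B → IsNilpotentBlock p M b := by
    intro H hH
    subst hH
    intro b hind
    haveI : Fintype (Cn (Subgroup.zpowers x)) := Fintype.ofFinite _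
    have hbp := isBrauerPairOf_of_isInducedBlock hM hQ hind
    have h2 := ((isBrauerPairOf_iff hM).1 hbp).2.2
    have h3 := NilB.centralizer hnil' h2
    rw [bl_eq_emb, rst_emb] at h3
    exact (isNilpotentBlock_iff hM hind.1).2 h3
  exact key _ (centralizer_singleton_eq x) b hind

include hM in
theorem abelian_of_induced {B : Set (IrrCharacter G)}
    (hab : ∀ D : Subgroup G, IsDefectGroup p M B D → ∀ x ∈ D, ∀ y ∈ D, x * y = y * x)
    {H : Subgroup G} {b : Set (IrrCharacter H)} (hind : IsInducedBlock M H b B) :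
    ∀ D : Subgroup H, IsDefectGroup p M b D → ∀ x ∈ D, ∀ y ∈ D, x * y = y * x := by
  intro D hD x hx y hy
  obtain ⟨E, hE, hle⟩ := Cfsg.Agent.Lib.Helper21.defectGroup_le_of_induced hM hind D hD
  apply Subtype.ext
  exact hab E hE x (hle ⟨x, hx, rfl⟩) y (hle ⟨y, hy, rfl⟩)

include hM in
theorem blockDefect_le_of_induced {B : Set (IrrCharacter G)}
    {H : Subgroup G} {b : Set (IrrCharacter H)} (hind : IsInducedBlock M H b B) :
    blockDefect p b ≤ blockDefect p B := by
  haveI : Fintype H := Fintype.ofFinite _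
  obtain ⟨D, hD⟩ := Cfsg.Agent.Lib.Helper21.exists_isDefectGroup hM b hind.1
  obtain ⟨E, hE, hle⟩ := Cfsg.Agent.Lib.Helper21.defectGroup_le_of_induced hM hind D hD
  have h1 := Cfsg.Agent.Lib.Helper21.card_defectGroup hM b hind.1 D hD
  have h2 := Cfsg.Agent.Lib.Helper21.card_defectGroup hM B hind.2.1 E hE
  have h3 : Nat.card D ≤ Nat.card E := by
    have h4 : Nat.card (D.map H.subtype) = Nat.card D :=
      Subgroup.card_map_of_injective (Subgroup.subtype_injective H)
    rw [← h4]
    exact Subgroup.card_le_of_le hle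
  rw [h1, h2] at h3
  exact (Nat.pow_le_pow_iff_right (Fact.out : p.Prime).one_lt).1 h3

end Local

section Main

variable {p : ℕ} [Fact p.Prime] {M : Ideal AlgInt}

theorem abnil_aux (hM : IsPModular p M) : ∀ (n : ℕ) (G : Type u) [Group G] [Fintype G],
    Nat.card G = n → ∀ B : Set (IrrCharacter G), IsNilpotentBlock p M B →
    (∀ D : Subgroup G, IsDefectGroup p M B D → ∀ x ∈ D, ∀ y ∈ D, x * y = y * x) →
    blockRank p B = 1 ∧ Nat.card B = p ^ blockDefect p B ∧
      ∀ χ ∈ B, blockHeight p B (χ : G → ℂ) = 0 := by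
  intro n
  induction n using Nat.strong_induction_on with
  | _ n ih =>
    intro G _ _ hn B hnil hab
    classical
    obtain ⟨X, hX, hXrep⟩ := exists_pReps (G := G) p
    apply abnil_num hM B hnil.1 X hX hXrep
    · intro x hx hxc b hind
      refine ⟨?_, blockDefect_le_of_induced hM hind⟩
      have hlt : Nat.card (Subgroup.centralizer ({x} : Set G)) < n := by
        rw [← hn]
        refine lt_of_le_of_ne (Subgroup.card_le_card_group _) ?_
        intro hcard
        have htop := Subgroup.eq_top_of_card_eq _ hcard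
        apply hxc
        rw [Subgroup.mem_center_iff]
        intro g
        have hg : g ∈ Subgroup.centralizer ({x} : Set G) := by rw [htop]; trivial
        exact ((Subgroup.mem_centralizer_iff.1 hg) x rfl).symm
      haveI : Fintype ↥(Subgroup.centralizer ({x} : Set G)) := Fintype.ofFinite _
      exact (ih _ hlt (↥(Subgroup.centralizer ({x} : Set G))) rfl b
        (isNilpotentBlock_of_induced hM hnil (hX x hx) hind)
        (abelian_of_induced hM hab hind)).1
    · obtain ⟨P, hP⟩ := Cfsg.Agent.Lib.Helper21.exists_isDefectGroup hM B hnil.1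
      rw [← Cfsg.Agent.Lib.Helper21.card_defectGroup hM B hnil.1 P hP]
      exact count_le hM hnil.1 hnil hP (hab P hP) X hXrep

/-- **Nilpotent blocks with abelian defect groups** (Broué--Puig in the abelian case, by the
counting argument with subsections): `l(B) = 1`, `k(B) = p ^ d(B)`, all heights are zero. -/
theorem abnil (hM : IsPModular p M) {G : Type u} [Group G] [Fintype G]
    {B : Set (IrrCharacter G)} (hnil : IsNilpotentBlock p M B)
    (hab : ∀ D : Subgroup G, IsDefectGroup p M B D → ∀ x ∈ D, ∀ y ∈ D, x * y = y * x) :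
    blockRank p B = 1 ∧ Nat.card B = p ^ blockDefect p B ∧
      ∀ χ ∈ B, blockHeight p B (χ : G → ℂ) = 0 :=
  abnil_aux hM _ G rfl B hnil hab

end Main

end Cfsg.Agent.Lib.Helper5
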