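import Cfsg.Agent.Lib.Helper81.SubsecBound
import Cfsg.Agent.Lib.Helper81.Subsections
import Cfsg.Agent.Lib.Helper78.RankOne
import Cfsg.Agent.Lib.Helper78.KminusL
import Cfsg.Agent.Lib.Helper79.GaloisChar
import Cfsg.Agent.Lib.Helper79.CharNorm

set_option autoImplicit false
set_option linter.unusedSectionVars false
open Cfsg
open scoped ComplexConjugate
open Cfsg.Agent.Lib.Helper20 Cfsg.Agent.Lib.Helper81

/-! Local norms of an irreducible character on `p`-sections, split according to subsections. -/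

namespace Cfsg.Agent.Lib.Helper5

section W

variable {G : Type*} [Group G] [Fintype G] {p : ℕ} {M : Ideal AlgInt}
variable (H : Subgroup G) [Fintype H]

theorem blockPart_univ {K : Type*} [Group K] [Fintype K] {θ : K → ℂ} (hθ : IsClassFunction K θ) :
    blockPart (Set.univ : Set (IrrCharacter K)) θ = θ := by
  classical
  have : Finite (IrrCharacter K) := finite_irrCharacter
  have : Fintype (IrrCharacter K) := Fintype.ofFinite _
  rw [blockPart_eq_sum]
  conv_rhs => rw [eq_sum_classInner_smul hθ]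
  apply Finset.sum_congr rfl; intro χ _
  rw [if_pos (Set.mem_univ _)]

theorem shift_classFunction {u : G} (hcomm : ∀ c : H, u * (c : G) = (c : G) * u)
    (χ : IrrCharacter G) : IsClassFunction H (fun c : H => (χ : G → ℂ) (u * (c : G))) := by
  intro c t
  show (χ : G → ℂ) (u * ((t : G) * (c : G) * (t : G)⁻¹)) = (χ : G → ℂ) (u * (c : G))
  rw [← irr_classFunction χ (u * (c : G)) (t : G)]
  have : u * ((t : G) * (c : G) * (t : G)⁻¹) = (t : G) * (u * (c : G)) * (t : G)⁻¹ := by
    calc u * ((t : G) * (c : G) * (t : G)⁻¹) = (u * (t : G)) * (c : G) * (t : G)⁻¹ := by group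
      _ = ((t : G) * u) * (c : G) * (t : G)⁻¹ := by rw [hcomm t]
      _ = (t : G) * (u * (c : G)) * (t : G)⁻¹ := by group
  rw [this]

theorem Th_univ {u : G} (hcomm : ∀ c : H, u * (c : G) = (c : G) * u) (χ : IrrCharacter G) :
    Th H Set.univ u (χ : G → ℂ) = fun c : H => (χ : G → ℂ) (u * (c : G)) :=
  blockPart_univ (shift_classFunction H hcomm χ)

/-- nonnegativity of the `p`-regular norm -/
theorem classInner_pReg_self_re_nonneg {K : Type*} [Group K] [Fintype K] (θ : K → ℂ) :
    0 ≤ (classInner (pRegularPart p θ) θ).re := by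
  classical
  rw [classInner, pRegularPart_eq]
  have h1 : ((Nat.card K : ℂ)⁻¹ * ∑ g : K, (if IsPRegular p g then θ g else 0) * conj (θ g))
      = (((Nat.card K : ℝ)⁻¹ * ∑ g : K, (if IsPRegular p g then ‖θ g‖ ^ 2 else 0) : ℝ) : ℂ) := by
    push_cast
    congr 1
    apply Finset.sum_congr rfl; intro g _
    split_ifs
    · rw [Complex.mul_conj, Complex.normSq_eq_norm_sq]
    · simp
  rw [h1, Complex.ofReal_re]
  apply mul_nonneg (by positivity)
  apply Finset.sum_nonneg; intro g _
  split_ifs <;> positivity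

theorem mS_self_re_nonneg (b : Set (IrrCharacter H)) (u : G) (χ : G → ℂ) :
    0 ≤ (mS p H b u χ χ).re := classInner_pReg_self_re_nonneg _

open Classical in
/-- the sum of the contributions of all blocks is the total local norm -/
theorem sum_blocks_mS (hM : IsPModular p M) [Fintype (IrrCharacter H)]
    [Fintype (Set (IrrCharacter H))] (y : H) (hy : y ∈ Subgroup.center H) (j : ℕ)
    (χ : IrrCharacter G) :
    ∑ b : Set (IrrCharacter H), (if IsPBlock M b then
        mS p H b ((y : G) ^ j) (χ : G → ℂ) (χ : G → ℂ) else 0)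
      = mS p H Set.univ ((y : G) ^ j) (χ : G → ℂ) (χ : G → ℂ) := by
  rw [mS_pow_eq H Set.univ y hy, sum_irr_eq_sum_blocks hM]
  apply Finset.sum_congr rfl; intro b _
  split_ifs with hb
  · rw [mS_pow_eq H b y hy]
    apply Finset.sum_congr rfl; intro ζ _
    by_cases hζ : ζ ∈ b
    · rw [if_pos hζ]
      apply Finset.sum_congr rfl; intro ξ _
      by_cases hξ : ξ ∈ b
      · rw [if_pos ⟨hζ, hξ⟩, if_pos ⟨Set.mem_univ _, Set.mem_univ _⟩]
      · rw [if_neg (fun h : ζ ∈ b ∧ ξ ∈ b => hξ h.2), if_pos ⟨Set.mem_univ _, Set.mem_univ _⟩,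
          mC_eq_zero hM]
        · simp
        · intro hs
          apply hξ
          rw [isPBlock_eq_blockOf hM hb hζ]
          exact hs
    · rw [if_neg hζ]
      apply Finset.sum_eq_zero; intro ξ _
      rw [if_neg (fun h : ζ ∈ b ∧ ξ ∈ b => hζ h.1)]
  · rfl

end W

section RankOne

variable {K : Type*} [Group K] [Fintype K] {p : ℕ} {M : Ideal AlgInt}

/-- a block of rank one: the contribution matrix is `d d^T` -/
theorem kC_of_rank_one (hM : IsPModular p M) {b : Set (IrrCharacter K)} (hb : IsPBlock M b)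
    (hl : blockRank p b = 1) :
    ∃ d : IrrCharacter K → ℕ, ∀ ζ ∈ b, ∀ ξ ∈ b, kC p b ζ ξ = (d ζ : ℤ) * (d ξ : ℤ) := by
  classical
  have : Finite (IrrCharacter K) := finite_irrCharacter
  have : Fintype (IrrCharacter K) := Fintype.ofFinite _
  obtain ⟨φ, d, n, -, h2, h3⟩ := Cfsg.Agent.Lib.Helper78.rank_one_structure hM hb hl
  refine ⟨d, ?_⟩
  set c : ℂ := (Nat.card K : ℂ)⁻¹ * ∑ g : K, (if IsPRegular p g then φ g * conj (φ g) else 0)
    with hc
  have hmC : ∀ ζ ∈ b, ∀ ξ ∈ b, mC p (ζ : K → ℂ) (ξ : K → ℂ) = (d ζ : ℂ) * (d ξ : ℂ) * c := by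
    intro ζ hζ ξ hξ
    rw [mC, classInner, pRegularPart_eq, hc, ← mul_assoc, mul_comm _ ((Nat.card K : ℂ)⁻¹), mul_assoc]
    congr 1
    rw [Finset.mul_sum]
    apply Finset.sum_congr rfl; intro g _
    simp only
    split_ifs with hg
    · rw [h2 ζ hζ g hg, h2 ξ hξ g hg]
      simp only [map_mul, Complex.conj_natCast]
      ring
    · simp
  set t : ℂ := (p : ℂ) ^ blockDefect p b * c with ht
  have hk : ∀ ζ ∈ b, ∀ ξ ∈ b, (kC p b ζ ξ : ℂ) = (d ζ : ℂ) * (d ξ : ℂ) * t := by
    intro ζ hζ ξ hξ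
    rw [kC_spec hM ζ hξ, hmC ζ hζ ξ hξ, ht]; ring
  obtain ⟨ζ₀, hζ₀, hmin⟩ := exists_minDeg (p := p) (isPBlock_nonempty hM hb)
  have h0 : blockHeight p b (ζ₀ : K → ℂ) = 0 := (blockHeight_eq_zero_iff hζ₀).2 hmin
  have hne := (kC_of_height_zero hM hb hζ₀ hζ₀ h0).2
  have hne' : (kC p b ζ₀ ζ₀ : ℂ) ≠ 0 := by exact_mod_cast hne
  rw [hk ζ₀ hζ₀ ζ₀ hζ₀] at hne'
  have hd0 : (d ζ₀ : ℂ) ≠ 0 := fun h => hne' (by rw [h]; ring)
  have ht0 : t ≠ 0 := fun h => hne' (by rw [h]; ring)
  have hsq := sum_kC_sq hM hb hζ₀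
  have hsq' : (∑ ψ : IrrCharacter K, (if ψ ∈ b then (kC p b ζ₀ ψ : ℂ) ^ 2 else 0))
      = (p : ℂ) ^ blockDefect p b * (kC p b ζ₀ ζ₀ : ℂ) := by
    have := congrArg (fun z : ℤ => (z : ℂ)) hsq
    push_cast at this
    rw [← this]
  have h3' : (∑ χ : IrrCharacter K, (if χ ∈ b then (d χ : ℂ) ^ 2 else 0))
      = (p : ℂ) ^ blockDefect p b := by
    have := congrArg (fun z : ℕ => (z : ℂ)) h3
    push_cast at this
    rw [← this]
  have hsum : (∑ ψ : IrrCharacter K, (if ψ ∈ b then (kC p b ζ₀ ψ : ℂ) ^ 2 else 0))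
      = (d ζ₀ : ℂ) ^ 2 * t ^ 2 * (p : ℂ) ^ blockDefect p b := by
    rw [← h3', Finset.mul_sum]
    apply Finset.sum_congr rfl; intro ψ _
    split_ifs with hψ
    · rw [hk ζ₀ hζ₀ ψ hψ]; ring
    · simp
  rw [hsum, hk ζ₀ hζ₀ ζ₀ hζ₀] at hsq'
  have hp0 : (p : ℂ) ^ blockDefect p b ≠ 0 := pow_ne_zero _ (by exact_mod_cast hM.1.ne_zero)
  have ht1 : t = 1 := by
    have h5 : (d ζ₀ : ℂ) ^ 2 * (p : ℂ) ^ blockDefect p b * t * (t - 1) = 0 := by
      linear_combination hsq'
    have h6 : (d ζ₀ : ℂ) ^ 2 * (p : ℂ) ^ blockDefect p b * t ≠ 0 :=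
      mul_ne_zero (mul_ne_zero (pow_ne_zero _ hd0) hp0) ht0
    have := (mul_eq_zero.1 h5).resolve_left h6
    linear_combination this
  intro ζ hζ ξ hξ
  have := hk ζ hζ ξ hξ
  rw [ht1, mul_one] at this
  exact_mod_cast this

end RankOne

section L2

variable {G : Type*} [Group G] [Fintype G] {p : ℕ} {M : Ideal AlgInt}
variable (H : Subgroup G) [Fintype H]

/-- Galois average of the contribution of a subsection with `l(b) = 1` at a height zero character -/
theorem totient_le_sum_mS_self (hM : IsPModular p M) {y : G} {a : ℕ} (hya : y ^ (p ^ a) = 1)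
    (hyH : y ∈ H) (hcomm : ∀ c : H, y * (c : G) = (c : G) * y)
    {b : Set (IrrCharacter H)} {B : Set (IrrCharacter G)} (hind : IsInducedBlock M H b B)
    (hl : blockRank p b = 1) {χ : IrrCharacter G} (hχ : χ ∈ B)
    (h0χ : blockHeight p B (χ : G → ℂ) = 0) :
    ((Nat.totient (p ^ a) : ℕ) : ℝ)
      ≤ ∑ j ∈ (Finset.range (p ^ a)).filter (fun j => Nat.Coprime j (p ^ a)),
        (p : ℝ) ^ blockDefect p b * (mS p H b (y ^ j) (χ : G → ℂ) (χ : G → ℂ)).re := by
  classical
  have : Finite (IrrCharacter H) := finite_irrCharacter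
  have : Fintype (IrrCharacter H) := Fintype.ofFinite _
  have hp := hM.1
  have hyc : (⟨y, hyH⟩ : H) ∈ Subgroup.center H := by
    rw [Subgroup.mem_center_iff]; intro g; apply Subtype.ext
    simp only [Subgroup.coe_mul]
    exact (hcomm g).symm
  obtain ⟨d, hd⟩ := kC_of_rank_one hM hind.1 hl
  set A : IrrCharacter H → ℤ := fun ζ => if ζ ∈ b then (cZ H χ ζ : ℤ) * (d ζ : ℤ) else 0 with hA
  have haC : ∀ i : IrrCharacter H × IrrCharacter H, aC H p b χ χ i = A i.1 * A i.2 := by
    intro i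
    simp only [aC, hA]
    by_cases h1 : i.1 ∈ b
    · by_cases h2 : i.2 ∈ b
      · rw [if_pos ⟨h1, h2⟩, if_pos h1, if_pos h2, hd _ h1 _ h2]; ring
      · rw [if_neg (fun h : i.1 ∈ b ∧ i.2 ∈ b => h2 h.2), if_neg h2, mul_zero]
    · rw [if_neg (fun h : i.1 ∈ b ∧ i.2 ∈ b => h1 h.1), if_neg h1, zero_mul]
  have hnd : ¬ (p : ℤ) ∣ ∑ ζ, A ζ := by
    intro hdvd
    apply sum_aC_not_dvd H hM hind hχ hχ h0χ h0χ
    have : ∑ i : IrrCharacter H × IrrCharacter H, aC H p b χ χ i = (∑ ζ, A ζ) * (∑ ζ, A ζ) := by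
      rw [Fintype.sum_prod_type, Finset.sum_mul_sum]
      apply Finset.sum_congr rfl; intro ζ _
      apply Finset.sum_congr rfl; intro ξ _
      exact haC (ζ, ξ)
    rw [this]
    exact Dvd.dvd.mul_right hdvd _
  have hlam : ∀ ζ : IrrCharacter H, lam (⟨y, hyH⟩ : H) (ζ : H → ℂ) ^ (p ^ a) = 1 := by
    intro ζ
    have h1 := irr_central_pow_mul ζ.2 hyc (p ^ a) 1
    have h2 : (⟨y, hyH⟩ : H) ^ (p ^ a) = 1 := Subtype.ext (by simpa using hya)
    rw [h2, one_mul] at h1
    have h10 := irr_one_ne_zero ζ.2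
    exact (mul_right_cancel₀ h10 (by rw [one_mul]; exact h1)).symm
  have h := parseval_bound (n := a) hp A (fun ζ => lam (⟨y, hyH⟩ : H) (ζ : H → ℂ)) hlam hnd
  refine h.trans (le_of_eq ?_)
  apply Finset.sum_congr rfl; intro j _
  have e := pow_mul_mS_pow_eq (p := p) H hM b ⟨y, hyH⟩ hyc j χ χ
  have e2 : (∑ i : IrrCharacter H × IrrCharacter H, (aC H p b χ χ i : ℂ) *
        (lam (⟨y, hyH⟩ : H) (i.1 : H → ℂ) * conj (lam (⟨y, hyH⟩ : H) (i.2 : H → ℂ))) ^ j)
      = (∑ ζ, (A ζ : ℂ) * lam (⟨y, hyH⟩ : H) (ζ : H → ℂ) ^ j) *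
        conj (∑ ζ, (A ζ : ℂ) * lam (⟨y, hyH⟩ : H) (ζ : H → ℂ) ^ j) := by
    rw [Fintype.sum_prod_type, map_sum, Finset.sum_mul_sum]
    apply Finset.sum_congr rfl; intro ζ _
    apply Finset.sum_congr rfl; intro ξ _
    rw [haC (ζ, ξ)]
    simp only [map_mul, map_pow, map_intCast, mul_pow]
    push_cast
    ring
  rw [e2, ← normSq_eq_mul_conj'] at e
  have e3 := congrArg Complex.re e
  rw [Complex.ofReal_re] at e3
  rw [← e3]
  have : ((p : ℂ) ^ blockDefect p b) = (((p : ℝ) ^ blockDefect p b : ℝ) : ℂ) := by push_cast; rfl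
  rw [this, Complex.re_ofReal_mul]

end L2

section Sections

variable {G : Type*} [Group G] [Fintype G] {p : ℕ} {M : Ideal AlgInt}

theorem comm_centralizer_singleton (x : G) (c : Subgroup.centralizer ({x} : Set G)) :
    x * (c : G) = (c : G) * x := Subgroup.mem_centralizer_iff.1 c.2 x rfl

theorem comm_pow_centralizer_singleton (x : G) (j : ℕ) (c : Subgroup.centralizer ({x} : Set G)) :
    x ^ j * (c : G) = (c : G) * x ^ j :=
  ((show Commute x (c : G) from comm_centralizer_singleton x c).pow_left j).eq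

theorem mem_centralizer_singleton_self (x : G) : x ∈ Subgroup.centralizer ({x} : Set G) := by
  rw [Subgroup.mem_centralizer_iff]
  intro v hv; rw [Set.mem_singleton_iff] at hv; rw [hv]

/-- a Galois twist acting only on `p`-parts -/
theorem exists_twist (hp : p.Prime) (N j : ℕ) (hN : N ≠ 0) (hj : Nat.Coprime j p) :
    ∃ k : ℕ, Nat.Coprime k N ∧ k ≡ j [MOD p ^ N.factorization p] ∧
      k ≡ 1 [MOD N / p ^ N.factorization p] := by
  have hcop : Nat.Coprime (p ^ N.factorization p) (N / p ^ N.factorization p) :=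
    (Nat.coprime_ordCompl hp hN).pow_left _
  obtain ⟨k, hk1, hk2⟩ := Nat.chineseRemainder hcop j 1
  refine ⟨k, ?_, hk1, hk2⟩
  rw [← Nat.ordProj_mul_ordCompl_eq_self N p]
  apply Nat.Coprime.mul_right
  · have := hk1.gcd_eq
    rw [Nat.Coprime, this]
    exact hj.pow_right _
  · have := hk2.gcd_eq
    rw [Nat.Coprime, this]
    exact Nat.gcd_one_left _

open Classical in
/-- the norm of `χ`, by `p`-sections, with a Galois twist on the `p`-parts -/
theorem sum_mS_univ_eq_one (hp : p.Prime) (χ : IrrCharacter G) (X : Finset G)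
    (hX : ∀ x ∈ X, ∃ k : ℕ, orderOf x = p ^ k)
    (hXrep : ∀ g : G, (∃ k : ℕ, orderOf g = p ^ k) → ∃! x, x ∈ X ∧ IsConj g x)
    (j : ℕ) (hj : Nat.Coprime j p) :
    ∑ x ∈ X, mS p (Subgroup.centralizer ({x} : Set G)) Set.univ (x ^ j) (χ : G → ℂ) (χ : G → ℂ)
      = 1 := by
  have hG : (Nat.card G : ℂ) ≠ 0 := card_ne_zero_complex
  obtain ⟨k, hk0, hk1, hk2⟩ := exists_twist hp (Nat.card G) j Nat.card_pos.ne' hj
  have hirr : IsIrrCharacter G (fun g => (χ : G → ℂ) (g ^ k)) :=
    Cfsg.Agent.Lib.Helper79.IsIrrCharacter.pow_coprime χ.2 k hk0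
  let χk : IrrCharacter G := ⟨_, hirr⟩
  let f : G → ℂ := fun g => (χk : G → ℂ) g * conj ((χk : G → ℂ) g)
  have hf : IsClassFunction G f := by
    intro g t
    simp only [f, irr_classFunction χk g t]
  have h1 : (Nat.card G : ℂ)⁻¹ * ∑ g, f g = 1 := classInner_irr_self hirr
  rw [sum_eq_sum_sections hp hf X hX hXrep, Finset.mul_sum] at h1
  rw [← h1]
  apply Finset.sum_congr rfl; intro x hx
  rw [mS, Th_univ _ (comm_pow_centralizer_singleton x j), classInner, pRegularPart_eq]
  have h4 : (Nat.card G : ℂ)⁻¹ * ((Subgroup.centralizer ({x} : Set G)).index : ℂ)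
      = (Nat.card (Subgroup.centralizer ({x} : Set G)) : ℂ)⁻¹ := by
    have hH : (Nat.card (Subgroup.centralizer ({x} : Set G)) : ℂ) ≠ 0 := card_ne_zero_complex
    rw [← Subgroup.index_mul_card (Subgroup.centralizer ({x} : Set G))]
    push_cast
    have hi : ((Subgroup.centralizer ({x} : Set G)).index : ℂ) ≠ 0 := by
      exact_mod_cast (Subgroup.centralizer ({x} : Set G)).index_ne_zero_of_finite
    field_simp
  rw [← mul_assoc, h4]
  congr 1
  apply Finset.sum_congr rfl; intro c _
  simp only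
  split_ifs with hc
  · have hxk : x ^ k = x ^ j := by
      rw [pow_eq_pow_iff_modEq]
      apply hk1.of_dvd
      obtain ⟨n, hn⟩ := hX x hx
      rw [hn]
      apply pow_dvd_pow
      have h5 : p ^ n ∣ Nat.card G := hn ▸ orderOf_dvd_natCard x
      exact (hp.pow_dvd_iff_le_factorization Nat.card_pos.ne').1 h5
    have hck : (c : G) ^ k = (c : G) := by
      conv_rhs => rw [← pow_one (c : G)]
      rw [pow_eq_pow_iff_modEq]
      apply hk2.of_dvd
      have h5 : orderOf (c : G) ∣ Nat.card G := orderOf_dvd_natCard _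
      rw [← Nat.ordProj_mul_ordCompl_eq_self (Nat.card G) p] at h5
      apply Nat.Coprime.dvd_of_dvd_mul_left _ h5
      apply Nat.Coprime.pow_right
      rw [Nat.coprime_comm, hp.coprime_iff_not_dvd]
      rw [Subgroup.orderOf_coe]
      exact hc
    have : (x * (c : G)) ^ k = x ^ j * (c : G) := by
      rw [(show Commute x (c : G) from comm_centralizer_singleton x c).mul_pow, hxk, hck]
    simp only [f, χk, this]
  · simp

open Classical in
theorem mS_univ_central (χ : IrrCharacter G) {x : G} (hx : x ∈ Subgroup.center G) (j : ℕ) :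
    mS p (Subgroup.centralizer ({x} : Set G)) Set.univ (x ^ j) (χ : G → ℂ) (χ : G → ℂ)
      = mC p (χ : G → ℂ) (χ : G → ℂ) := by
  have htop : Subgroup.centralizer ({x} : Set G) = ⊤ := by
    rw [eq_top_iff]
    intro g _
    rw [Subgroup.mem_centralizer_iff]
    intro v hv
    rw [Set.mem_singleton_iff] at hv
    rw [hv]
    exact (Subgroup.mem_center_iff.1 hx g).symm
  have hcard : Nat.card (Subgroup.centralizer ({x} : Set G)) = Nat.card G := by
    rw [htop, Subgroup.card_top]
  rw [mS, Th_univ _ (comm_pow_centralizer_singleton x j), mC, classInner, classInner, hcard,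
    pRegularPart_eq, pRegularPart_eq]
  congr 1
  rw [← sum_subgroup_eq (Subgroup.centralizer ({x} : Set G))
      (fun g => (if IsPRegular p g then (χ : G → ℂ) g else 0) * conj ((χ : G → ℂ) g))
      (fun g hg => absurd (htop ▸ Subgroup.mem_top g) hg)]
  apply Finset.sum_congr rfl; intro c _
  have hiff : IsPRegular p (c : G) ↔ IsPRegular p c := by
    simp only [IsPRegular, Subgroup.orderOf_coe]
  by_cases hc : IsPRegular p c
  · simp only [if_pos hc, if_pos (hiff.2 hc)]
    rw [irr_central_pow_mul χ.2 hx j (c : G), map_mul, map_pow]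
    have := lam_mul_conj χ.2 hx
    calc lam x (χ : G → ℂ) ^ j * (χ : G → ℂ) c * (conj (lam x (χ : G → ℂ)) ^ j * conj ((χ : G → ℂ) c))
        = (lam x (χ : G → ℂ) * conj (lam x (χ : G → ℂ))) ^ j * ((χ : G → ℂ) c * conj ((χ : G → ℂ) c)) := by
          rw [mul_pow]; ring
      _ = _ := by rw [this, one_pow, one_mul]
  · simp only [if_neg hc, if_neg (fun h => hc (hiff.1 h)), zero_mul]

open Classical in
/-- The contribution of the section of a central `p`-element to `k(B)` is `l(B)`. -/
theorem sum_induced_central (hM : IsPModular p M) (B : Set (IrrCharacter G)) (hB : IsPBlock M B)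
    {x : G} (hx : x ∈ Subgroup.center G) (hxp : ∃ k : ℕ, orderOf x = p ^ k)
    [Fintype (Set (IrrCharacter (Subgroup.centralizer ({x} : Set G))))] :
    ∑ b : Set (IrrCharacter (Subgroup.centralizer ({x} : Set G))),
      (if IsInducedBlock M (Subgroup.centralizer ({x} : Set G)) b B then (blockRank p b : ℂ)
        else 0) = (blockRank p B : ℂ) := by
  have : Finite (IrrCharacter G) := finite_irrCharacter
  have : Fintype (IrrCharacter G) := Fintype.ofFinite _
  have hG : (Nat.card G : ℂ) ≠ 0 := card_ne_zero_complex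
  have htop : Subgroup.centralizer ({x} : Set G) = ⊤ := by
    rw [eq_top_iff]
    intro g _
    rw [Subgroup.mem_centralizer_iff]
    intro v hv
    rw [Set.mem_singleton_iff] at hv
    rw [hv]
    exact (Subgroup.mem_center_iff.1 hx g).symm
  have hcard : Nat.card (Subgroup.centralizer ({x} : Set G)) = Nat.card G := by
    rw [htop, Subgroup.card_top]
  have h1 := section_sum hM x hxp B hB
  have h2 := card_mul_blockRank hM B hB
  rw [hcard] at h1
  apply mul_left_cancel₀ hG
  rw [← h1, h2]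
  have h3 : ∀ g : G, ∑ᶠ χ ∈ B, pRegularPart p (χ : G → ℂ) g * (χ : G → ℂ) g⁻¹
      = ∑ χ : IrrCharacter G, if χ ∈ B then pRegularPart p (χ : G → ℂ) g * (χ : G → ℂ) g⁻¹
        else 0 := by
    intro g
    rw [finsum_mem_irr]
  rw [Finset.sum_congr rfl (fun g _ => h3 g), Finset.sum_comm]
  apply Finset.sum_congr rfl; intro χ _
  split_ifs with hχ
  · rw [← sum_subgroup_eq (Subgroup.centralizer ({x} : Set G))
      (fun g => pRegularPart p (χ : G → ℂ) g * (χ : G → ℂ) g⁻¹)
      (fun g hg => absurd (htop ▸ Subgroup.mem_top g) hg)]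
    apply Finset.sum_congr rfl; intro y _
    have hx' : x⁻¹ ∈ Subgroup.center G := Subgroup.inv_mem _ hx
    have e1 := irr_central_pow_mul χ.2 hx 1 (y : G)
    have e2 := irr_central_pow_mul χ.2 hx' 1 ((y : G)⁻¹)
    have e3 := irr_central_pow_mul χ.2 hx 1 (x⁻¹)
    have e4 := irr_central_pow_mul χ.2 hx' 1 (1 : G)
    simp only [pow_one, mul_one, mul_inv_cancel] at e1 e2 e3 e4
    have h10 := irr_one_ne_zero χ.2
    have e5 : lam x (χ : G → ℂ) * lam x⁻¹ (χ : G → ℂ) = 1 := by
      rw [e4] at e3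
      apply mul_right_cancel₀ h10
      rw [one_mul, mul_assoc]; exact e3.symm
    simp only [pRegularPart_eq, Subgroup.coe_inv, IsPRegular, Subgroup.orderOf_coe]
    by_cases hy : p ∣ orderOf y
    · simp [hy]
    · simp only [hy, not_false_eq_true, if_true]
      rw [e1, e2]
      calc lam x (χ : G → ℂ) * (χ : G → ℂ) y * (lam x⁻¹ (χ : G → ℂ) * (χ : G → ℂ) (y : G)⁻¹)
          = (lam x (χ : G → ℂ) * lam x⁻¹ (χ : G → ℂ)) * ((χ : G → ℂ) y * (χ : G → ℂ) (y : G)⁻¹) := by ring
        _ = _ := by rw [e5, one_mul]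
  · simp

end Sections

section Num

variable {G : Type*} [Group G] [Fintype G] {p : ℕ} {M : Ideal AlgInt}

open Classical in
theorem card_induced_eq_sum (H : Subgroup G) (B : Set (IrrCharacter G))
    [Fintype (Set (IrrCharacter H))] :
    Nat.card {b : Set (IrrCharacter H) // IsInducedBlock M H b B}
      = ∑ b : Set (IrrCharacter H), if IsInducedBlock M H b B then 1 else 0 := by
  rw [Nat.card_eq_fintype_card, Fintype.card_subtype, Finset.card_filter]

open Classical in
/-- lower bound for the Galois-averaged local norm at a `p`-element all of whose subsections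
have rank one -/
theorem local_bound (hM : IsPModular p M) (x : G) {e : ℕ} (hxe : x ^ (p ^ e) = 1)
    {B : Set (IrrCharacter G)} {χ : IrrCharacter G} (hχ : χ ∈ B)
    (h0χ : blockHeight p B (χ : G → ℂ) = 0)
    (hloc : ∀ b : Set (IrrCharacter (Subgroup.centralizer ({x} : Set G))),
      IsInducedBlock M (Subgroup.centralizer ({x} : Set G)) b B →
        blockRank p b = 1 ∧ blockDefect p b ≤ blockDefect p B) :
    (Nat.card {b : Set (IrrCharacter (Subgroup.centralizer ({x} : Set G))) //
          IsInducedBlock M (Subgroup.centralizer ({x} : Set G)) b B} : ℝ)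
        * ((Nat.totient (p ^ e) : ℕ) : ℝ)
      ≤ (p : ℝ) ^ blockDefect p B *
        ∑ j ∈ (Finset.range (p ^ e)).filter (fun j => Nat.Coprime j (p ^ e)),
          (mS p (Subgroup.centralizer ({x} : Set G)) Set.univ (x ^ j)
            (χ : G → ℂ) (χ : G → ℂ)).re := by
  have : Finite (IrrCharacter (Subgroup.centralizer ({x} : Set G))) := finite_irrCharacter
  have : Fintype (IrrCharacter (Subgroup.centralizer ({x} : Set G))) := Fintype.ofFinite _
  have : Fintype (Set (IrrCharacter (Subgroup.centralizer ({x} : Set G)))) := Fintype.ofFinite _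
  have hp1 : (1 : ℝ) ≤ (p : ℝ) := by exact_mod_cast hM.1.one_lt.le
  have hxH := mem_centralizer_singleton_self x
  have hyc : (⟨x, hxH⟩ : Subgroup.centralizer ({x} : Set G)) ∈
      Subgroup.center (Subgroup.centralizer ({x} : Set G)) := by
    rw [Subgroup.mem_center_iff]; intro g; apply Subtype.ext
    simp only [Subgroup.coe_mul]
    exact (comm_centralizer_singleton x g).symm
  rw [card_induced_eq_sum]
  push_cast
  rw [Finset.sum_mul, Finset.mul_sum]
  calc ∑ b : Set (IrrCharacter (Subgroup.centralizer ({x} : Set G))),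
        (if IsInducedBlock M (Subgroup.centralizer ({x} : Set G)) b B then (1 : ℝ) else 0)
          * ((Nat.totient (p ^ e) : ℕ) : ℝ)
      ≤ ∑ b : Set (IrrCharacter (Subgroup.centralizer ({x} : Set G))),
        ∑ j ∈ (Finset.range (p ^ e)).filter (fun j => Nat.Coprime j (p ^ e)),
        (if IsInducedBlock M (Subgroup.centralizer ({x} : Set G)) b B then
          (p : ℝ) ^ blockDefect p B * (mS p (Subgroup.centralizer ({x} : Set G)) b (x ^ j)
            (χ : G → ℂ) (χ : G → ℂ)).re else 0) := by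
        apply Finset.sum_le_sum; intro b _
        by_cases hb : IsInducedBlock M (Subgroup.centralizer ({x} : Set G)) b B
        · simp only [if_pos hb, one_mul]
          refine (totient_le_sum_mS_self _ hM hxe hxH (comm_centralizer_singleton x) hb
            (hloc b hb).1 hχ h0χ).trans ?_
          apply Finset.sum_le_sum; intro j _
          apply mul_le_mul_of_nonneg_right _ (mS_self_re_nonneg _ _ _ _)
          exact pow_le_pow_right₀ hp1 (hloc b hb).2
        · simp [if_neg hb]
    _ = ∑ j ∈ (Finset.range (p ^ e)).filter (fun j => Nat.Coprime j (p ^ e)),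
        ∑ b : Set (IrrCharacter (Subgroup.centralizer ({x} : Set G))),
        (if IsInducedBlock M (Subgroup.centralizer ({x} : Set G)) b B then
          (p : ℝ) ^ blockDefect p B * (mS p (Subgroup.centralizer ({x} : Set G)) b (x ^ j)
            (χ : G → ℂ) (χ : G → ℂ)).re else 0) := Finset.sum_comm
    _ ≤ _ := by
        apply Finset.sum_le_sum; intro j _
        have h1 := sum_blocks_mS (p := p) (Subgroup.centralizer ({x} : Set G)) hM ⟨x, hxH⟩ hyc j χ
        have h2 := congrArg Complex.re h1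
        rw [Complex.re_sum] at h2
        show _ ≤ (p : ℝ) ^ blockDefect p B * (mS p (Subgroup.centralizer ({x} : Set G)) Set.univ
          (((⟨x, hxH⟩ : Subgroup.centralizer ({x} : Set G)) : G) ^ j) (χ : G → ℂ) (χ : G → ℂ)).re
        rw [← h2, Finset.mul_sum]
        apply Finset.sum_le_sum; intro b _
        by_cases hb : IsInducedBlock M (Subgroup.centralizer ({x} : Set G)) b B
        · rw [if_pos hb, if_pos hb.1]
        · rw [if_neg hb]
          apply mul_nonneg (by positivity)
          split_ifs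
          · exact mS_self_re_nonneg _ _ _ _
          · simp

end Num

end Cfsg.Agent.Lib.Helper5
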