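import Cfsg.Agent.Lib.Helper5.AbNilNorm

set_option autoImplicit false
set_option linter.unusedSectionVars false
open Cfsg
open scoped ComplexConjugate
open Cfsg.Agent.Lib.Helper20 Cfsg.Agent.Lib.Helper81

/-! The numerical core of the theorem on nilpotent blocks with abelian defect groups. -/

namespace Cfsg.Agent.Lib.Helper5

section Num

variable {G : Type*} [Group G] [Fintype G] {p : ℕ} {M : Ideal AlgInt}

open Classical in
/-- Step 1: `z κ + N ≤ p ^ d`. -/
theorem abnil_step1 (hM : IsPModular p M) (B : Set (IrrCharacter G)) (hB : IsPBlock M B)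
    (X : Finset G) (hX : ∀ x ∈ X, ∃ k : ℕ, orderOf x = p ^ k)
    (hXrep : ∀ g : G, (∃ k : ℕ, orderOf g = p ^ k) → ∃! x, x ∈ X ∧ IsConj g x)
    (hloc : ∀ x ∈ X, x ∉ Subgroup.center G →
      ∀ b : Set (IrrCharacter (Subgroup.centralizer ({x} : Set G))),
      IsInducedBlock M (Subgroup.centralizer ({x} : Set G)) b B →
        blockRank p b = 1 ∧ blockDefect p b ≤ blockDefect p B)
    {χ : IrrCharacter G} (hχ : χ ∈ B) (h0χ : blockHeight p B (χ : G → ℂ) = 0) :
    ((X.filter (fun x => x ∈ Subgroup.center G)).card : ℤ) * kC p B χ χ +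
      ((∑ x ∈ X.filter (fun x => x ∉ Subgroup.center G),
        Nat.card {b : Set (IrrCharacter (Subgroup.centralizer ({x} : Set G))) //
          IsInducedBlock M (Subgroup.centralizer ({x} : Set G)) b B} : ℕ) : ℤ)
      ≤ (p : ℤ) ^ blockDefect p B := by
  have hp := hM.1
  set e := (Nat.card G).factorization p + 1 with he
  set J := (Finset.range (p ^ e)).filter (fun j => Nat.Coprime j (p ^ e)) with hJ
  set Φ : ℝ := ((Nat.totient (p ^ e) : ℕ) : ℝ) with hΦ
  have hΦpos : 0 < Φ := by
    rw [hΦ]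
    exact_mod_cast Nat.totient_pos.2 (pow_pos hp.pos _)
  have hJcard : (J.card : ℝ) = Φ := by
    rw [hΦ, hJ, Nat.totient_eq_card_coprime]
    congr 2
    apply Finset.filter_congr
    intro j _
    exact Nat.coprime_comm
  have hjp : ∀ j ∈ J, Nat.Coprime j p := by
    intro j hj
    have := (Finset.mem_filter.1 hj).2
    exact (Nat.coprime_pow_right_iff (by omega) _ _).1 this
  have hxe : ∀ x ∈ X, x ^ (p ^ e) = 1 := by
    intro x hx
    obtain ⟨n, hn⟩ := hX x hx
    apply orderOf_dvd_iff_pow_eq_one.1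
    rw [hn]
    apply pow_dvd_pow
    have h5 : p ^ n ∣ Nat.card G := hn ▸ orderOf_dvd_natCard x
    have := (hp.pow_dvd_iff_le_factorization Nat.card_pos.ne').1 h5
    omega
  -- total
  have htot : Φ = ∑ x ∈ X, ∑ j ∈ J,
      (mS p (Subgroup.centralizer ({x} : Set G)) Set.univ (x ^ j) (χ : G → ℂ) (χ : G → ℂ)).re := by
    rw [Finset.sum_comm, ← hJcard]
    have : ∀ j ∈ J, ∑ x ∈ X,
        (mS p (Subgroup.centralizer ({x} : Set G)) Set.univ (x ^ j) (χ : G → ℂ) (χ : G → ℂ)).re
          = 1 := by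
      intro j hj
      have h1 := sum_mS_univ_eq_one hp χ X hX hXrep j (hjp j hj)
      have h2 := congrArg Complex.re h1
      rw [Complex.re_sum, Complex.one_re] at h2
      exact h2
    rw [Finset.sum_congr rfl this]
    simp
  have hk : (kC p B χ χ : ℝ) = (p : ℝ) ^ blockDefect p B * (mC p (χ : G → ℂ) (χ : G → ℂ)).re := by
    have h1 := kC_spec hM χ hχ (B := B)
    have h2 := congrArg Complex.re h1
    have h3 : ((p : ℂ) ^ blockDefect p B) = (((p : ℝ) ^ blockDefect p B : ℝ) : ℂ) := by
      push_cast; rfl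
    rw [h3, Complex.re_ofReal_mul, Complex.intCast_re] at h2
    exact h2
  rw [← Finset.sum_filter_add_sum_filter_not X (fun x => x ∈ Subgroup.center G)] at htot
  have hc : ∑ x ∈ X.filter (fun x => x ∈ Subgroup.center G), ∑ j ∈ J,
      (mS p (Subgroup.centralizer ({x} : Set G)) Set.univ (x ^ j) (χ : G → ℂ) (χ : G → ℂ)).re
      = ((X.filter (fun x => x ∈ Subgroup.center G)).card : ℝ) *
        (Φ * (mC p (χ : G → ℂ) (χ : G → ℂ)).re) := by
    rw [Finset.sum_congr rfl (g := fun _ => Φ * (mC p (χ : G → ℂ) (χ : G → ℂ)).re)]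
    · simp
    · intro x hx
      rw [Finset.sum_congr rfl (g := fun _ => (mC p (χ : G → ℂ) (χ : G → ℂ)).re)]
      · rw [Finset.sum_const, nsmul_eq_mul, hJcard]
      · intro j _
        rw [mS_univ_central χ (Finset.mem_filter.1 hx).2 j]
  have hn : (((∑ x ∈ X.filter (fun x => x ∉ Subgroup.center G),
        Nat.card {b : Set (IrrCharacter (Subgroup.centralizer ({x} : Set G))) //
          IsInducedBlock M (Subgroup.centralizer ({x} : Set G)) b B} : ℕ) : ℝ)) * Φ
      ≤ (p : ℝ) ^ blockDefect p B * ∑ x ∈ X.filter (fun x => x ∉ Subgroup.center G), ∑ j ∈ J,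
      (mS p (Subgroup.centralizer ({x} : Set G)) Set.univ (x ^ j) (χ : G → ℂ) (χ : G → ℂ)).re := by
    push_cast
    rw [Finset.sum_mul, Finset.mul_sum]
    apply Finset.sum_le_sum; intro x hx
    have hx' := Finset.mem_filter.1 hx
    exact local_bound hM x (hxe x hx'.1) hχ h0χ (hloc x hx'.1 hx'.2)
  rw [hc] at htot
  have hfin : (((X.filter (fun x => x ∈ Subgroup.center G)).card : ℝ) * (kC p B χ χ : ℝ) +
      (((∑ x ∈ X.filter (fun x => x ∉ Subgroup.center G),
        Nat.card {b : Set (IrrCharacter (Subgroup.centralizer ({x} : Set G))) //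
          IsInducedBlock M (Subgroup.centralizer ({x} : Set G)) b B} : ℕ) : ℝ))) * Φ
      ≤ (p : ℝ) ^ blockDefect p B * Φ := by
    rw [hk]
    calc _ = (p : ℝ) ^ blockDefect p B * (((X.filter (fun x => x ∈ Subgroup.center G)).card : ℝ) *
        (Φ * (mC p (χ : G → ℂ) (χ : G → ℂ)).re)) + (((∑ x ∈ X.filter (fun x => x ∉ Subgroup.center G),
        Nat.card {b : Set (IrrCharacter (Subgroup.centralizer ({x} : Set G))) //
          IsInducedBlock M (Subgroup.centralizer ({x} : Set G)) b B} : ℕ) : ℝ)) * Φ := by ring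
      _ ≤ (p : ℝ) ^ blockDefect p B * (((X.filter (fun x => x ∈ Subgroup.center G)).card : ℝ) *
        (Φ * (mC p (χ : G → ℂ) (χ : G → ℂ)).re)) + (p : ℝ) ^ blockDefect p B *
          ∑ x ∈ X.filter (fun x => x ∉ Subgroup.center G), ∑ j ∈ J,
      (mS p (Subgroup.centralizer ({x} : Set G)) Set.univ (x ^ j) (χ : G → ℂ) (χ : G → ℂ)).re := by
          linarith [hn]
      _ = (p : ℝ) ^ blockDefect p B * Φ := by
          rw [← mul_add, ← htot]
  have hfin2 := le_of_mul_le_mul_right hfin hΦpos
  exact_mod_cast hfin2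

open Classical in
/-- **Numerical core.**  If all subsections at noncentral `p`-elements have rank one, and there are
at least `p ^ d` subsections (central elements counted once), then `l(B) = 1`, `k(B) = p ^ d`. -/
theorem abnil_num (hM : IsPModular p M) (B : Set (IrrCharacter G)) (hB : IsPBlock M B)
    (X : Finset G) (hX : ∀ x ∈ X, ∃ k : ℕ, orderOf x = p ^ k)
    (hXrep : ∀ g : G, (∃ k : ℕ, orderOf g = p ^ k) → ∃! x, x ∈ X ∧ IsConj g x)
    (hloc : ∀ x ∈ X, x ∉ Subgroup.center G →
      ∀ b : Set (IrrCharacter (Subgroup.centralizer ({x} : Set G))),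
      IsInducedBlock M (Subgroup.centralizer ({x} : Set G)) b B →
        blockRank p b = 1 ∧ blockDefect p b ≤ blockDefect p B)
    (hcount : p ^ blockDefect p B ≤ (X.filter (fun x => x ∈ Subgroup.center G)).card +
      ∑ x ∈ X.filter (fun x => x ∉ Subgroup.center G),
        Nat.card {b : Set (IrrCharacter (Subgroup.centralizer ({x} : Set G))) //
          IsInducedBlock M (Subgroup.centralizer ({x} : Set G)) b B}) :
    blockRank p B = 1 ∧ Nat.card B = p ^ blockDefect p B ∧
      ∀ χ ∈ B, blockHeight p B (χ : G → ℂ) = 0 := by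
  have : Finite (IrrCharacter G) := finite_irrCharacter
  have : Fintype (IrrCharacter G) := Fintype.ofFinite _
  have hfin : ∀ x : G, Finite (IrrCharacter (Subgroup.centralizer ({x} : Set G))) :=
    fun x => finite_irrCharacter
  have hfs : ∀ x : G, Fintype (Set (IrrCharacter (Subgroup.centralizer ({x} : Set G)))) :=
    fun x => Fintype.ofFinite _
  have hp := hM.1
  obtain ⟨χ, hχ, hmin⟩ := exists_minDeg (p := p) (isPBlock_nonempty hM hB)
  have h0χ : blockHeight p B (χ : G → ℂ) = 0 := (blockHeight_eq_zero_iff hχ).2 hmin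
  set z := (X.filter (fun x => x ∈ Subgroup.center G)).card with hz
  set N := ∑ x ∈ X.filter (fun x => x ∉ Subgroup.center G),
        Nat.card {b : Set (IrrCharacter (Subgroup.centralizer ({x} : Set G))) //
          IsInducedBlock M (Subgroup.centralizer ({x} : Set G)) b B} with hN
  have h1 := abnil_step1 hM B hB X hX hXrep hloc hχ h0χ
  rw [← hz, ← hN] at h1
  -- `z ≥ 1`
  have hz1 : 1 ≤ z := by
    obtain ⟨x, ⟨hx1, hx2⟩, -⟩ := hXrep 1 ⟨0, by simp⟩
    have : x = 1 := (isConj_one_right.1 hx2)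
    rw [hz]
    apply Finset.card_pos.2
    exact ⟨1, Finset.mem_filter.2 ⟨this ▸ hx1, Subgroup.one_mem _⟩⟩
  have hκ0 := (kC_self_le hM hB hχ).1
  have hκne := (kC_of_height_zero hM hB hχ hχ h0χ).2
  have hκ1 : 1 ≤ kC p B χ χ := by omega
  have hcount' : (p : ℤ) ^ blockDefect p B ≤ (z : ℤ) + (N : ℤ) := by exact_mod_cast hcount
  have hκ : kC p B χ χ = 1 := by
    have hz' : (1 : ℤ) ≤ (z : ℤ) := by exact_mod_cast hz1
    nlinarith
  -- `k(B) ≤ p ^ d`
  have hcardB : Nat.card B = ∑ ψ : IrrCharacter G, (if ψ ∈ B then 1 else 0) := by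
    rw [Nat.card_eq_fintype_card, Fintype.card_subtype, Finset.card_filter]
  have hsq := sum_kC_sq hM hB hχ
  rw [hκ, mul_one] at hsq
  have hkle : (Nat.card B : ℤ) ≤ (p : ℤ) ^ blockDefect p B := by
    rw [← hsq, hcardB]
    push_cast
    apply Finset.sum_le_sum; intro ψ _
    split_ifs with hψ
    · have := (kC_of_height_zero hM hB hχ hψ h0χ).2
      have h2 : 0 < kC p B χ ψ ^ 2 := by positivity
      omega
    · exact le_refl _
  -- Brauer's formula
  have hform := card_block_eq hM B hB X hX hXrep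
  rw [← Finset.sum_filter_add_sum_filter_not X (fun x => x ∈ Subgroup.center G)] at hform
  have hc : ∑ x ∈ X.filter (fun x => x ∈ Subgroup.center G),
      ∑ b : Set (IrrCharacter (Subgroup.centralizer ({x} : Set G))),
      (if IsInducedBlock M (Subgroup.centralizer ({x} : Set G)) b B then (blockRank p b : ℂ)
      else 0) = (z : ℂ) * (blockRank p B : ℂ) := by
    rw [Finset.sum_congr rfl (g := fun _ => (blockRank p B : ℂ))]
    · simp [hz]
    · intro x hx
      have hx' := Finset.mem_filter.1 hx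
      exact sum_induced_central hM B hB hx'.2 (hX x hx'.1)
  have hn : ∑ x ∈ X.filter (fun x => x ∉ Subgroup.center G),
      ∑ b : Set (IrrCharacter (Subgroup.centralizer ({x} : Set G))),
      (if IsInducedBlock M (Subgroup.centralizer ({x} : Set G)) b B then (blockRank p b : ℂ)
      else 0) = (N : ℂ) := by
    rw [hN]
    push_cast
    apply Finset.sum_congr rfl; intro x hx
    have hx' := Finset.mem_filter.1 hx
    rw [card_induced_eq_sum]
    push_cast
    apply Finset.sum_congr rfl; intro b _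
    split_ifs with hb
    · rw [(hloc x hx'.1 hx'.2 b hb).1]; simp
    · rfl
  rw [hc, hn] at hform
  have hform' : Nat.card B = z * blockRank p B + N := by exact_mod_cast hform
  -- `l(B) ≥ 1`
  have hl1 : 1 ≤ blockRank p B := by
    by_contra hcon
    have hl0 : blockRank p B = 0 := by omega
    have h5 := pow_mul_blockRank hM B hB
    rw [hl0] at h5
    simp only [Nat.cast_zero, mul_zero] at h5
    have h6 : kC p B χ χ ≤ ∑ χ' : IrrCharacter G, (if χ' ∈ B then kC p B χ' χ' else 0) := by
      have := Finset.single_le_sum (f := fun χ' : IrrCharacter G =>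
        (if χ' ∈ B then kC p B χ' χ' else 0)) (s := Finset.univ) (fun χ' _ => by
          show 0 ≤ (if χ' ∈ B then kC p B χ' χ' else 0)
          split_ifs with h
          · exact (kC_self_le hM hB h).1
          · exact le_refl _) (Finset.mem_univ χ)
      simpa [hχ] using this
    omega
  have hkle' : Nat.card B ≤ p ^ blockDefect p B := by exact_mod_cast hkle
  have hl : blockRank p B = 1 := by
    have h7 : z * blockRank p B ≤ z := by omega
    have h8 : z * blockRank p B ≤ z * 1 := by omega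
    have := Nat.le_of_mul_le_mul_left h8 (by omega)
    omega
  have hk : Nat.card B = p ^ blockDefect p B := by
    rw [hl, mul_one] at hform'
    omega
  refine ⟨hl, hk, ?_⟩
  -- all heights are zero: all `kC χ ψ ^ 2 = 1`
  intro ψ hψ
  by_contra hne
  have hdvd := (kC_of_height_zero hM hB hχ hψ h0χ).1
  have hne0 := (kC_of_height_zero hM hB hχ hψ h0χ).2
  have hpd : (p : ℤ) ∣ kC p B χ ψ := by
    refine Dvd.dvd.trans ?_ hdvd
    push_cast
    exact dvd_pow_self _ hne
  have h4 : (4 : ℤ) ≤ kC p B χ ψ ^ 2 := by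
    obtain ⟨c, hc'⟩ := hpd
    have hc0 : c ≠ 0 := by rintro rfl; simp at hc'; exact hne0 hc'
    have hp2 : (2 : ℤ) ≤ p := by exact_mod_cast hp.two_le
    have hc2 : 1 ≤ c ^ 2 := by
      have : 0 < c ^ 2 := by positivity
      omega
    rw [hc', mul_pow]
    nlinarith
  have hlt : (Nat.card B : ℤ) < (p : ℤ) ^ blockDefect p B := by
    rw [← hsq, hcardB]
    push_cast
    apply Finset.sum_lt_sum
    · intro ψ' _
      split_ifs with hψ'
      · have := (kC_of_height_zero hM hB hχ hψ' h0χ).2
        have h2 : 0 < kC p B χ ψ' ^ 2 := by positivity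
        omega
      · exact le_refl _
    · refine ⟨ψ, Finset.mem_univ _, ?_⟩
      rw [if_pos hψ, if_pos hψ]
      omega
  rw [hk] at hlt
  push_cast at hlt
  exact lt_irrefl _ hlt

end Num

end Cfsg.Agent.Lib.Helper5
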