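import Cfsg.Agent.Lib.Helper80.GAIndT
import Cfsg.Agent.Lib.Helper80.GALocNil
import Cfsg.Agent.Lib.Helper80.GAFMT
import Cfsg.Agent.Lib.Helper29.HKTrans
import Cfsg.Agent.Lib.Helper21.Induced
import Cfsg.Agent.Lib.Helper21.DefectCard
import Cfsg.Agent.Lib.Helper5.AbNilNum

set_option autoImplicit false
set_option linter.unusedSectionVars false
set_option linter.style.haveILetI false
open Cfsg
open Cfsg.Agent.Lib.Helper20 Cfsg.Agent.Lib.Helper81 Cfsg.Agent.Lib.Helper80
open Cfsg.Agent.Lib.Helper80.GA Cfsg.Agent.Lib.Helper87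

/-! Brauer pair side of the theorem on nilpotent blocks with abelian defect groups. -/

namespace Cfsg.Agent.Lib.Helper5

section GAside

variable {k : Type*} {G : Type*} [Field k] [Group G] [Fintype G]
variable {p : ℕ} [Fact p.Prime] [CharP k p]

theorem cS_zpowers (g u : G) :
    cS g (Subgroup.zpowers u) = Subgroup.zpowers (g * u * g⁻¹) := by
  rw [cS, MonoidHom.map_zpowers]; rfl

theorem centralizer_singleton_eq (x : G) :
    Subgroup.centralizer ({x} : Set G) = Cn (Subgroup.zpowers x) := by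
  ext g
  rw [Subgroup.mem_centralizer_iff, Subgroup.mem_centralizer_iff]
  constructor
  · intro hg v hv
    obtain ⟨n, rfl⟩ := Subgroup.mem_zpowers_iff.1 hv
    have : Commute x g := hg x rfl
    exact (this.zpow_left n).eq
  · intro hg v hv
    rw [Set.mem_singleton_iff] at hv
    rw [hv]
    exact hg x (Subgroup.mem_zpowers x)

/-- no fusion of Brauer elements in a nilpotent block with abelian defect groups -/
theorem fusion_trivial {b e : GA k G} {P : Subgroup G} (h : IsMaxBP p b P e)
    (hsp : ∀ (H : Subgroup G) (c : GA k G), IsBlk H c → ∀ z, InZ H z →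
      ∃ l : k, IsNilpotent (z * c - l • c))
    (hnil : NilB p b) (hab : ∀ x ∈ P, ∀ y ∈ P, x * y = y * x)
    {u : G} (hu : u ∈ P) {f : GA k G} (hle : BPLE p (Subgroup.zpowers u, f) (P, e)) {g : G}
    (hle' : BPLE p (cS g (Subgroup.zpowers u), cj g f) (P, e)) : g * u * g⁻¹ = u := by
  have hinner := (h.nilB_iff_inner hsp).1 hnil
  have hmor : Mor (bfs h.1.1) (Subgroup.zpowers u) (fun x => g * x * g⁻¹) :=
    (mor_bfs_iff h.1.1 _ _).2 ⟨g, f, fun _ _ => rfl, hle, hle'⟩
  rw [hinner] at hmor
  obtain ⟨φ, ⟨_, y, hy, hφ⟩, hφ2⟩ := hmor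
  have h1 := hφ2 ⟨u, Subgroup.mem_zpowers u⟩
  rw [hφ] at h1
  simp only at h1
  rw [← h1, hab y hy u hu, mul_inv_cancel_right]

end GAside

section Count

variable {p : ℕ} [Fact p.Prime] {M : Ideal AlgInt} (hM : IsPModular p M)
  {G : Type*} [Group G] [Fintype G]

theorem isPGroup_zpowers_of_orderOf {x : G} (hx : ∃ k : ℕ, orderOf x = p ^ k) :
    IsPGroup p (Subgroup.zpowers x) := by
  obtain ⟨k, hk⟩ := hx
  apply IsPGroup.of_card (n := k)
  rw [Nat.card_zpowers, hk]

/-- subsections at `x` in terms of block idempotents -/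
theorem isInducedBlock_centralizer_iff {x : G} (hx : ∃ k : ℕ, orderOf x = p ^ k)
    {b : Set (IrrCharacter (Subgroup.centralizer ({x} : Set G)))} (hb : IsPBlock M b)
    {B : Set (IrrCharacter G)} (hB : IsPBlock M B) :
    IsInducedBlock M (Subgroup.centralizer ({x} : Set G)) b B ↔
      br (Subgroup.zpowers x) (blkR hM B) * bl hM (Subgroup.centralizer ({x} : Set G)) b
        = bl hM (Subgroup.centralizer ({x} : Set G)) b := by
  apply Cfsg.Agent.Lib.Helper29.Kn.isInducedBlock_iff hM (isPGroup_zpowers_of_orderOf hx) _ _ _ hb hB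
  · rw [Subgroup.zpowers_le]; exact mem_centralizer_singleton_self x
  · rw [centralizer_singleton_eq]
  · rw [centralizer_singleton_eq]; exact Cn_le_Nn _

/-- every Brauer element below the maximal pair is conjugate to a subsection at a representative -/
theorem exists_data {B : Set (IrrCharacter G)} (hB : IsPBlock M B) {P : Subgroup G}
    {e : GA (Kr hM) G} (h : IsMaxBP p (blkR hM B) P e) (X : Finset G)
    (hXrep : ∀ g : G, (∃ k : ℕ, orderOf g = p ^ k) → ∃! x, x ∈ X ∧ IsConj g x)
    (u : G) (hu : u ∈ P) :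
    ∃ x ∈ X, ∃ g : G, g * u * g⁻¹ = x ∧ ∃ f : GA (Kr hM) G,
      BPLE p (Subgroup.zpowers u, f) (P, e) ∧
      ∃ b : Set (IrrCharacter (Subgroup.centralizer ({x} : Set G))),
        IsInducedBlock M (Subgroup.centralizer ({x} : Set G)) b B ∧
        bl hM (Subgroup.centralizer ({x} : Set G)) b = cj g f := by
  have he : IsBP p P e := h.1.1
  have hup : ∃ k : ℕ, orderOf u = p ^ k := by
    obtain ⟨k, hk⟩ := he.1 ⟨u, hu⟩
    have h1 : u ^ (p ^ k) = 1 := by simpa using congrArg Subtype.val hk
    obtain ⟨m, _, hm⟩ := (Nat.dvd_prime_pow Fact.out).1 (orderOf_dvd_of_pow_eq_one h1)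
    exact ⟨m, hm⟩
  obtain ⟨x, ⟨hxX, hconj⟩, -⟩ := hXrep u hup
  obtain ⟨g, hg⟩ := isConj_iff.1 hconj
  have hxp : ∃ k : ℕ, orderOf x = p ^ k := by
    obtain ⟨k, hk⟩ := hup
    refine ⟨k, ?_⟩
    rw [← hg, ← hk]
    have := orderOf_injective (MulAut.conj g).toMonoidHom (MulAut.conj g).injective u
    simpa using this
  obtain ⟨f, hf, hle⟩ := he.exists_subpair' (Q := Subgroup.zpowers u)
    (by rw [Subgroup.zpowers_le]; exact hu)
  have hbp : IsBPOf p (blkR hM B) (Subgroup.zpowers u) f := (hle.isBPOf_iff).1 h.1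
  have hbp' := hbp.cj g
  rw [cS_zpowers, hg] at hbp'
  have hblk : IsBlk (Subgroup.centralizer ({x} : Set G)) (cj g f) := by
    rw [centralizer_singleton_eq]; exact hbp'.1.2
  obtain ⟨b, hb, hbeq⟩ := exists_block_of_isBlk_sub hM _ hblk
  refine ⟨x, hxX, g, hg, f, hle, b, ?_, hbeq.symm⟩
  rw [isInducedBlock_centralizer_iff hM hxp hb hB, ← hbeq]
  exact hbp'.2.2

include hM in
open Classical in
/-- there are at least `|P|` subsections -/
theorem count_le {B : Set (IrrCharacter G)} (hB : IsPBlock M B) (hnil : IsNilpotentBlock p M B)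
    {P : Subgroup G} (hP : IsDefectGroup p M B P) (hab : ∀ x ∈ P, ∀ y ∈ P, x * y = y * x)
    (X : Finset G)
    (hXrep : ∀ g : G, (∃ k : ℕ, orderOf g = p ^ k) → ∃! x, x ∈ X ∧ IsConj g x) :
    Nat.card P ≤ (X.filter (fun x => x ∈ Subgroup.center G)).card +
      ∑ x ∈ X.filter (fun x => x ∉ Subgroup.center G),
        Nat.card {b : Set (IrrCharacter (Subgroup.centralizer ({x} : Set G))) //
          IsInducedBlock M (Subgroup.centralizer ({x} : Set G)) b B} := by
  have hfin : ∀ x : G, Finite (IrrCharacter (Subgroup.centralizer ({x} : Set G))) :=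
    fun x => finite_irrCharacter
  have hdef : IsDef p ⊤ (blkR hM B) P := isDef_of_isDefectGroup hM hB hP
  obtain ⟨e, hmax⟩ := (isBlk_blkR hM hB).exists_isMaxBP_of_isDef hdef
  have hnil' : NilB p (blkR hM B) := (isNilpotentBlock_iff hM hB).1 hnil
  have hsp : ∀ (H : Subgroup G) (c : GA (Kr hM) G), IsBlk H c → ∀ z, InZ H z →
      ∃ l : Kr hM, IsNilpotent (z * c - l • c) := fun H c hc => split_sub hM hc
  have hPp : IsPGroup p P := hmax.1.1.1
  -- split `P`
  have hsplit : Nat.card P = Nat.card {u : P // (u : G) ∈ Subgroup.center G} +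
      Nat.card {u : P // (u : G) ∉ Subgroup.center G} := by
    rw [← Nat.card_sum]
    exact (Nat.card_congr (Equiv.sumCompl (fun u : P => (u : G) ∈ Subgroup.center G))).symm
  rw [hsplit]
  apply Nat.add_le_add
  · -- central elements
    have hmem : ∀ u : {u : P // (u : G) ∈ Subgroup.center G},
        ((u : P) : G) ∈ X.filter (fun x => x ∈ Subgroup.center G) := by
      intro u
      have hup : ∃ k : ℕ, orderOf ((u : P) : G) = p ^ k := by
        obtain ⟨k, hk⟩ := hPp (u : P)
        have h1 : ((u : P) : G) ^ (p ^ k) = 1 := by simpa using congrArg Subtype.val hk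
        obtain ⟨m, _, hm⟩ := (Nat.dvd_prime_pow Fact.out).1 (orderOf_dvd_of_pow_eq_one h1)
        exact ⟨m, hm⟩
      obtain ⟨x, ⟨hxX, hconj⟩, -⟩ := hXrep _ hup
      obtain ⟨g, hg⟩ := isConj_iff.1 hconj
      have : x = ((u : P) : G) := by
        rw [← hg, (Subgroup.mem_center_iff.1 u.2 g), mul_inv_cancel_right]
      rw [Finset.mem_filter]
      exact ⟨this ▸ hxX, u.2⟩
    have hinj : Function.Injective (fun u : {u : P // (u : G) ∈ Subgroup.center G} =>
        (⟨((u : P) : G), hmem u⟩ : {x // x ∈ X.filter (fun x => x ∈ Subgroup.center G)})) := by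
      intro u v huv
      have := congrArg Subtype.val huv
      exact Subtype.ext (Subtype.ext this)
    have := Nat.card_le_card_of_injective _ hinj
    rwa [Nat.card_eq_fintype_card (α := {x // x ∈ X.filter (fun x => x ∈ Subgroup.center G)}),
      Fintype.card_coe] at this
  · -- noncentral elements
    have hex : ∀ u : {u : P // (u : G) ∉ Subgroup.center G}, _ :=
      fun u => exists_data hM hB hmax X hXrep ((u : P) : G) (u : P).2
    choose x hxX g hg f hle b hind hbl using hex
    have hxn : ∀ u, x u ∈ X.filter (fun x => x ∉ Subgroup.center G) := by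
      intro u
      rw [Finset.mem_filter]
      refine ⟨hxX u, fun hc => u.2 ?_⟩
      have h1 : ((u : P) : G) = (g u)⁻¹ * x u * g u := by rw [← hg u]; group
      rw [h1, (Subgroup.mem_center_iff.1 hc (g u)⁻¹), mul_assoc, inv_mul_cancel, mul_one]
      exact hc
    let T := Σ y : {y // y ∈ X.filter (fun x => x ∉ Subgroup.center G)},
      {b : Set (IrrCharacter (Subgroup.centralizer ({(y : G)} : Set G))) //
          IsInducedBlock M (Subgroup.centralizer ({(y : G)} : Set G)) b B}
    have hT : Nat.card T = ∑ x ∈ X.filter (fun x => x ∉ Subgroup.center G),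
        Nat.card {b : Set (IrrCharacter (Subgroup.centralizer ({x} : Set G))) //
          IsInducedBlock M (Subgroup.centralizer ({x} : Set G)) b B} := by
      rw [Nat.card_sigma]
      exact Finset.sum_coe_sort (X.filter (fun x => x ∉ Subgroup.center G))
        (fun x => Nat.card {b : Set (IrrCharacter (Subgroup.centralizer ({x} : Set G))) //
          IsInducedBlock M (Subgroup.centralizer ({x} : Set G)) b B})
    rw [← hT]
    let Φ : {u : P // (u : G) ∉ Subgroup.center G} → T := fun u => ⟨⟨x u, hxn u⟩, ⟨b u, hind u⟩⟩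
    let Ψ : T → G × GA (Kr hM) G :=
      fun t => ((t.1 : G), bl hM (Subgroup.centralizer ({(t.1 : G)} : Set G)) t.2.1)
    apply Nat.card_le_card_of_injective Φ
    intro u v huv
    have h1 := congrArg Ψ huv
    simp only [Φ, Ψ, Prod.mk.injEq] at h1
    obtain ⟨hx, hb⟩ := h1
    rw [hbl u, hbl v] at hb
    -- the conjugating element
    have hgu : ((g v)⁻¹ * g u) * ((u : P) : G) * ((g v)⁻¹ * g u)⁻¹ = ((v : P) : G) := by
      have : ((g v)⁻¹ * g u) * ((u : P) : G) * ((g v)⁻¹ * g u)⁻¹
          = (g v)⁻¹ * (g u * ((u : P) : G) * (g u)⁻¹) * g v := by group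
      rw [this, hg u, hx, ← hg v]; group
    have hcf : cj ((g v)⁻¹ * g u) (f u) = f v := by
      rw [← GA.cj_cj, hb, GA.cj_inv_cj]
    have hle' : BPLE p (cS ((g v)⁻¹ * g u) (Subgroup.zpowers ((u : P) : G)),
        cj ((g v)⁻¹ * g u) (f u)) (P, e) := by
      rw [cS_zpowers, hgu, hcf]; exact hle v
    have := fusion_trivial hmax hsp hnil' hab (u : P).2 (hle u) hle'
    rw [hgu] at this
    exact Subtype.ext (Subtype.ext this.symm)

end Count

end Cfsg.Agent.Lib.Helper5
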