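import Mathlib

set_option autoImplicit false
set_option linter.unusedSectionVars false
set_option linter.style.haveILetI false

/-! Groups acting on a cyclic `p`-subgroup by conjugation. -/

namespace Cfsg.Agent.Lib.Helper5

section CycAct

variable {G : Type*} [Group G] {p : ℕ} [Fact p.Prime]

/-- an element normalising a finite cyclic subgroup acts on it as a power map -/
theorem exists_pow_act {P : Subgroup G} [Finite P] (hcyc : IsCyclic P) {g : G}
    (hg : g ∈ Subgroup.normalizer (P : Set G)) : ∃ k : ℕ, ∀ y ∈ P, g * y * g⁻¹ = y ^ k := by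
  obtain ⟨a, ha⟩ := hcyc.exists_generator
  have h1 : g * (a : G) * g⁻¹ ∈ P := (Subgroup.mem_normalizer_iff.1 hg a).1 a.2
  have h2 := ha ⟨_, h1⟩
  rw [← mem_powers_iff_mem_zpowers] at h2
  obtain ⟨k, hk⟩ := h2
  have hk' : (a : G) ^ k = g * (a : G) * g⁻¹ := by
    have := congrArg Subtype.val hk
    simpa using this
  refine ⟨k, fun y hy => ?_⟩
  have h3 := ha ⟨y, hy⟩
  rw [← mem_powers_iff_mem_zpowers] at h3
  obtain ⟨j, hj⟩ := h3
  have hj' : (a : G) ^ j = y := by
    have := congrArg Subtype.val hj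
    simpa using this
  rw [← hj', ← conj_pow, ← hk', ← pow_mul, ← pow_mul, mul_comm]

theorem pow_act_iter {P : Subgroup G} {g : G} {k : ℕ} (h : ∀ y ∈ P, g * y * g⁻¹ = y ^ k) (m : ℕ) :
    ∀ y ∈ P, g ^ m * y * (g ^ m)⁻¹ = y ^ (k ^ m) := by
  induction m with
  | zero => intro y _; simp
  | succ m ih =>
    intro y hy
    calc g ^ (m + 1) * y * (g ^ (m + 1))⁻¹ = g * (g ^ m * y * (g ^ m)⁻¹) * g⁻¹ := by
          rw [pow_succ']; group
      _ = g * (y ^ (k ^ m)) * g⁻¹ := by rw [ih y hy]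
      _ = (y ^ (k ^ m)) ^ k := h _ (P.pow_mem hy _)
      _ = y ^ (k ^ (m + 1)) := by rw [← pow_mul, pow_succ]

/-- an element normalising a cyclic `p`-group and fixing a nonidentity element has a `p`-power
in the centraliser -/
theorem cyc_fix_pow {P : Subgroup G} [Finite P] (hP : IsPGroup p P) (hcyc : IsCyclic P) {g : G}
    (hg : g ∈ Subgroup.normalizer (P : Set G)) {x : G} (hx : x ∈ P) (hx1 : x ≠ 1)
    (hfix : g * x * g⁻¹ = x) : ∃ n : ℕ, g ^ (p ^ n) ∈ Subgroup.centralizer (P : Set G) := by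
  have hp : p.Prime := Fact.out
  obtain ⟨k, hk⟩ := exists_pow_act hcyc hg
  obtain ⟨n, hn⟩ := IsPGroup.iff_card.1 hP
  have h1 : x ^ k = x ^ 1 := by rw [← hk x hx, hfix, pow_one]
  rw [pow_eq_pow_iff_modEq] at h1
  have h2 : p ∣ orderOf x := by
    obtain ⟨s, hs⟩ := hP ⟨x, hx⟩
    have hs' : x ^ (p ^ s) = 1 := by simpa using congrArg Subtype.val hs
    obtain ⟨t, _, ht⟩ := (Nat.dvd_prime_pow hp).1 (orderOf_dvd_of_pow_eq_one hs')
    rcases t with _ | t
    · rw [pow_zero, orderOf_eq_one_iff] at ht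
      exact absurd ht hx1
    · rw [ht, pow_succ]; exact Dvd.intro_left _ rfl
  have h3 : k ≡ 1 [MOD p] := h1.of_dvd h2
  have h4 : ((p : ℕ) : ℤ) ∣ (k : ℤ) - 1 := by
    have := (Nat.modEq_iff_dvd.1 h3.symm)
    simpa using this
  have h5 := dvd_sub_pow_of_dvd_sub h4 n
  have h6 : k ^ (p ^ n) ≡ 1 [MOD p ^ n] := by
    apply Nat.ModEq.symm
    rw [Nat.modEq_iff_dvd]
    have h7 : ((p ^ n : ℕ) : ℤ) ∣ (p : ℤ) ^ (n + 1) := by
      push_cast; exact pow_dvd_pow _ (Nat.le_succ n)
    have := h7.trans h5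
    simpa using this
  refine ⟨n, ?_⟩
  rw [Subgroup.mem_centralizer_iff]
  intro y hy
  have h8 := pow_act_iter hk (p ^ n) y hy
  have h9 : y ^ (k ^ (p ^ n)) = y ^ 1 := by
    rw [pow_eq_pow_iff_modEq]
    apply h6.of_dvd
    rw [← hn]
    have := orderOf_dvd_natCard (⟨y, hy⟩ : P)
    rwa [Subgroup.orderOf_mk] at this
  rw [h9, pow_one] at h8
  calc y * g ^ (p ^ n) = (g ^ (p ^ n) * y * (g ^ (p ^ n))⁻¹) * g ^ (p ^ n) := by rw [h8]
    _ = g ^ (p ^ n) * y := by group

/-- decomposition into `p`-part and `p'`-part -/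
theorem mem_of_p_and_p' [Finite G] {C : Subgroup G} {x : G}
    (h1 : ∀ j : ℕ, ¬ p ∣ orderOf (x ^ j) → x ^ j ∈ C)
    (h2 : ∀ j : ℕ, IsPGroup p (Subgroup.zpowers (x ^ j)) → x ^ j ∈ C) : x ∈ C := by
  have hp : p.Prime := Fact.out
  obtain ⟨a, m, hm, hxo⟩ := Nat.exists_eq_pow_mul_and_not_dvd (orderOf_pos x).ne' p hp.ne_one
  have hm0 : m ≠ 0 := by
    rintro rfl; exact hm (dvd_zero p)
  have hA : x ^ (p ^ a) ∈ C := by
    apply h1
    rw [orderOf_pow_of_dvd (pow_ne_zero a hp.ne_zero) (hxo ▸ Dvd.intro _ rfl), hxo,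
      Nat.mul_div_cancel_left _ (pow_pos hp.pos a)]
    exact hm
  have hB : x ^ m ∈ C := by
    apply h2
    rw [IsPGroup.iff_card]
    refine ⟨a, ?_⟩
    rw [Nat.card_zpowers, orderOf_pow_of_dvd hm0 (hxo ▸ Dvd.intro_left _ rfl), hxo,
      Nat.mul_div_cancel _ (Nat.pos_of_ne_zero hm0)]
  have hcop : Nat.Coprime (p ^ a) m :=
    Nat.Coprime.pow_left a ((Nat.Prime.coprime_iff_not_dvd hp).2 hm)
  have hbez := Nat.gcd_eq_gcd_ab (p ^ a) m
  rw [hcop.gcd_eq_one] at hbez
  have : x = (x ^ (p ^ a)) ^ (Nat.gcdA (p ^ a) m) * (x ^ m) ^ (Nat.gcdB (p ^ a) m) := by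
    rw [← zpow_natCast x, ← zpow_natCast x, ← zpow_mul, ← zpow_mul, ← zpow_add, ← hbez]
    simp
  rw [this]
  exact C.mul_mem (C.zpow_mem hA _) (C.zpow_mem hB _)

/-- a group `T ≤ N(P)` whose `p`-subgroups centralise the cyclic `p`-group `P` acts freely on
`P ∖ 1` modulo `C(P)` -/
theorem cyc_free [Finite G] {P T : Subgroup G} (hP : IsPGroup p P) (hcyc : IsCyclic P)
    (hTN : T ≤ Subgroup.normalizer (P : Set G))
    (hTp : ∀ S : Subgroup G, S ≤ T → IsPGroup p S → S ≤ Subgroup.centralizer (P : Set G))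
    {g : G} (hg : g ∈ T) {x : G} (hx : x ∈ P) (hx1 : x ≠ 1) (hfix : g * x * g⁻¹ = x) :
    g ∈ Subgroup.centralizer (P : Set G) := by
  have hcomm : Commute g x := by
    calc g * x = (g * x * g⁻¹) * g := by group
      _ = x * g := by rw [hfix]
  apply mem_of_p_and_p' (p := p)
  · intro j hj
    have hfix' : g ^ j * x * (g ^ j)⁻¹ = x := by
      rw [(hcomm.pow_left j).eq]; group
    obtain ⟨n, hn⟩ := cyc_fix_pow hP hcyc (hTN (T.pow_mem hg j)) hx hx1 hfix'
    have hcop : (p ^ n).Coprime (orderOf (g ^ j)) :=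
      Nat.Coprime.pow_left n ((Nat.Prime.coprime_iff_not_dvd Fact.out).2 hj)
    obtain ⟨m, hm⟩ := exists_pow_eq_self_of_coprime hcop
    rw [← hm]
    exact Subgroup.pow_mem _ hn m
  · intro j hj
    exact hTp _ (by rw [Subgroup.zpowers_le]; exact T.pow_mem hg j) hj (Subgroup.mem_zpowers _)

theorem isCyclic_units_zmod_of_eq (n : ℕ) (h : n = p) : IsCyclic (ZMod n)ˣ := by
  subst h
  infer_instance

/-- the quotient `T / C(P)` of a group acting freely on a nontrivial cyclic `p`-group -/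
theorem cyc_quot [Finite G] {P T : Subgroup G} (hP : IsPGroup p P) (hP1 : P ≠ ⊥)
    (hcyc : IsCyclic P) (hTN : T ≤ Subgroup.normalizer (P : Set G))
    (hfree : ∀ g ∈ T, ∀ x ∈ P, x ≠ 1 → g * x * g⁻¹ = x → g ∈ Subgroup.centralizer (P : Set G))
    [hn : ((Subgroup.centralizer (P : Set G)).subgroupOf T).Normal] :
    IsCyclic (T ⧸ (Subgroup.centralizer (P : Set G)).subgroupOf T) ∧
      (Subgroup.centralizer (P : Set G)).relIndex T ∣ p - 1 := by
  have hp : p.Prime := Fact.out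
  -- an element of order `p`
  obtain ⟨z, hzP, hz⟩ : ∃ z ∈ P, orderOf z = p := by
    have hnt : Nontrivial P := (Subgroup.nontrivial_iff_ne_bot P).2 hP1
    obtain ⟨n, hn⟩ := IsPGroup.iff_card.1 hP
    have hdvd : p ∣ Nat.card P := by
      rcases n with _ | n
      · rw [pow_zero] at hn
        have := Finite.one_lt_card (α := P)
        omega
      · rw [hn, pow_succ]; exact Dvd.intro_left _ rfl
    obtain ⟨z, hz⟩ := exists_prime_orderOf_dvd_card' p hdvd
    exact ⟨z, z.2, by rw [← hz, Subgroup.orderOf_coe]⟩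
  have hz1 : z ≠ 1 := by
    rintro rfl
    rw [orderOf_one] at hz
    exact hp.one_lt.ne hz
  set Ω : Subgroup G := Subgroup.zpowers z with hΩ
  have hΩP : Ω ≤ P := by rw [hΩ, Subgroup.zpowers_le]; exact hzP
  have hcardΩ : Nat.card Ω = p := by rw [hΩ, Nat.card_zpowers, hz]
  have hTΩ : T ≤ Subgroup.normalizer (Ω : Set G) := by
    have key : ∀ g ∈ T, ∀ y ∈ Ω, g * y * g⁻¹ ∈ Ω := by
      intro g hg y hy
      obtain ⟨k, hk⟩ := exists_pow_act hcyc (hTN hg)
      rw [hk y (hΩP hy)]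
      exact Ω.pow_mem hy k
    intro g hg
    rw [Subgroup.mem_normalizer_iff]
    intro y
    refine ⟨key g hg y, fun h => ?_⟩
    have := key g⁻¹ (T.inv_mem hg) _ h
    simpa [mul_assoc] using this
  let ψ : T →* MulAut Ω := Ω.normalizerMonoidHom.comp (Subgroup.inclusion hTΩ)
  have hker : ψ.ker = (Subgroup.centralizer (P : Set G)).subgroupOf T := by
    ext t
    rw [MonoidHom.mem_ker, Subgroup.mem_subgroupOf]
    have h1 : ψ t = 1 ↔ Subgroup.inclusion hTΩ t ∈ Ω.normalizerMonoidHom.ker := by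
      rw [MonoidHom.mem_ker]; rfl
    rw [h1, Subgroup.normalizerMonoidHom_ker, Subgroup.mem_subgroupOf]
    constructor
    · intro h
      have h2 : z * (t : G) = (t : G) * z :=
        (Subgroup.mem_centralizer_iff.1 h) z (Subgroup.mem_zpowers z)
      apply hfree t t.2 z hzP hz1
      rw [← h2]; group
    · intro h
      exact Subgroup.centralizer_le (by exact_mod_cast hΩP) h
  have hcycA : IsCyclic (MulAut Ω) := by
    haveI : IsCyclic Ω := by rw [hΩ]; infer_instance
    haveI := isCyclic_units_zmod_of_eq (p := p) _ hcardΩ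
    exact isCyclic_of_surjective (IsCyclic.mulAutMulEquiv Ω).symm
      (IsCyclic.mulAutMulEquiv Ω).symm.surjective
  have hcardA : Nat.card (MulAut Ω) = p - 1 := by
    haveI : IsCyclic Ω := by rw [hΩ]; infer_instance
    rw [IsCyclic.card_mulAut, hcardΩ, Nat.totient_prime hp]
  let e : (T ⧸ (Subgroup.centralizer (P : Set G)).subgroupOf T) ≃* ψ.range :=
    (QuotientGroup.quotientMulEquivOfEq hker.symm).trans (QuotientGroup.quotientKerEquivRange ψ)
  constructor
  · haveI : IsCyclic ψ.range := Subgroup.isCyclic _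
    exact isCyclic_of_surjective e.symm e.symm.surjective
  · have h1 : (Subgroup.centralizer (P : Set G)).relIndex T = Nat.card ψ.range := by
      rw [Subgroup.relIndex, Subgroup.index_eq_card]
      exact Nat.card_congr e.toEquiv
    rw [h1, ← hcardA]
    exact Subgroup.card_subgroup_dvd_card _

/-- second isomorphism theorem for relative indices -/
theorem relIndex_sup_of_le_normalizer {H N : Subgroup G}
    (h : H ≤ Subgroup.normalizer (N : Set G)) : N.relIndex (H ⊔ N) = N.relIndex H := by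
  letI := Subgroup.normal_subgroupOf_of_le_normalizer h
  letI := Subgroup.normal_subgroupOf_sup_of_le_normalizer h
  exact Nat.card_congr (QuotientGroup.quotientInfEquivProdNormalizerQuotient H N h).toEquiv.symm

end CycAct

end Cfsg.Agent.Lib.Helper5
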