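import Cfsg.Agent.Lib.Helper5.FreeNil

set_option autoImplicit false
set_option linter.unusedSectionVars false
set_option linter.style.haveILetI false
open Cfsg
open Cfsg.Agent.Lib.Helper20 Cfsg.Agent.Lib.Helper81 Cfsg.Agent.Lib.Helper80
open Cfsg.Agent.Lib.Helper80.GA

/-! Counting subsections for blocks with abelian defect groups and free inertial action. -/

namespace Cfsg.Agent.Lib.Helper5

variable {p : ℕ} [Fact p.Prime] {M : Ideal AlgInt} (hM : IsPModular p M)
  {G : Type*} [Group G] [Fintype G]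

/-- a subsection `(x,b)` of `B` gives the `B`-Brauer pair `(⟨x⟩, b)` -/
theorem isBPOf_of_subsection {B : Set (IrrCharacter G)} {x : G}
    (hx : ∃ k : ℕ, orderOf x = p ^ k)
    {b : Set (IrrCharacter (Subgroup.centralizer ({x} : Set G)))}
    (hind : IsInducedBlock M (Subgroup.centralizer ({x} : Set G)) b B) :
    IsBPOf p (blkR hM B) (Subgroup.zpowers x) (bl hM (Subgroup.centralizer ({x} : Set G)) b) :=
  ⟨⟨isPGroup_zpowers_of_orderOf hx, by
      rw [← centralizer_singleton_eq]; exact isBlk_bl hM _ hind.1⟩,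
    isBlk_blkR hM hind.2.1, (isInducedBlock_centralizer_iff hM hx hind.1 hind.2.1).1 hind⟩

include hM in
/-- nontrivial subsections have rank one when the inertial group acts freely -/
theorem subsection_rank_one_of_free {B : Set (IrrCharacter G)} {P : Subgroup G}
    {e : GA (Kr hM) G} (h : IsMaxBP p (blkR hM B) P e)
    (hPD : IsDefectGroup p M B P)
    (hab : ∀ x ∈ P, ∀ y ∈ P, x * y = y * x)
    (hfree : ∀ g ∈ stabP P e, ∀ x ∈ P, x ≠ 1 → g * x * g⁻¹ = x → g ∈ Cn P)
    {x : G} (hx : ∃ k : ℕ, orderOf x = p ^ k) (hx1 : x ≠ 1)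
    {b : Set (IrrCharacter (Subgroup.centralizer ({x} : Set G)))}
    (hind : IsInducedBlock M (Subgroup.centralizer ({x} : Set G)) b B) :
    IsNilpotentBlock p M b ∧ blockRank p b = 1 := by
  have hQ1 : Subgroup.zpowers x ≠ ⊥ := by
    rw [Ne, Subgroup.zpowers_eq_bot]; exact hx1
  have key : ∀ (H : Subgroup G) (_ : H = Cn (Subgroup.zpowers x)) (b : Set (IrrCharacter H)),
      IsInducedBlock M H b B → IsBPOf p (blkR hM B) (Subgroup.zpowers x) (bl hM H b) →
        IsNilpotentBlock p M b := by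
    intro H hH
    subst hH
    intro b hind hbp
    exact local_nilpotent_of_free hM h hab hfree hQ1 hind.1 hbp
  have hnil := key _ (centralizer_singleton_eq x) b hind (isBPOf_of_subsection hM hx hind)
  haveI : Fintype (Subgroup.centralizer ({x} : Set G)) := Fintype.ofFinite _
  exact ⟨hnil, (abnil hM hnil
    (abelian_of_induced hM (abelian_all_defect hM hind.2.1 hPD hab) hind)).1⟩

/-- if the inertial group is transitive on `P ∖ 1`, there is at most one nontrivial subsection -/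
theorem subsection_unique_of_trans {B : Set (IrrCharacter G)} {P : Subgroup G}
    {e : GA (Kr hM) G} (h : IsMaxBP p (blkR hM B) P e)
    (htrans : ∀ u ∈ P, u ≠ 1 → ∀ u' ∈ P, u' ≠ 1 → ∃ s ∈ stabP P e, s * u * s⁻¹ = u')
    (X : Finset G)
    (hXrep : ∀ g : G, (∃ k : ℕ, orderOf g = p ^ k) → ∃! x, x ∈ X ∧ IsConj g x)
    {x x' : G} (hxX : x ∈ X) (hxX' : x' ∈ X) (hx1 : x ≠ 1) (hx1' : x' ≠ 1)
    (hx : ∃ k : ℕ, orderOf x = p ^ k) (hx' : ∃ k : ℕ, orderOf x' = p ^ k)
    {b : Set (IrrCharacter (Subgroup.centralizer ({x} : Set G)))}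
    (hind : IsInducedBlock M (Subgroup.centralizer ({x} : Set G)) b B)
    {b' : Set (IrrCharacter (Subgroup.centralizer ({x'} : Set G)))}
    (hind' : IsInducedBlock M (Subgroup.centralizer ({x'} : Set G)) b' B) :
    x = x' ∧ bl hM (Subgroup.centralizer ({x} : Set G)) b
      = bl hM (Subgroup.centralizer ({x'} : Set G)) b' := by
  have he : IsBP p P e := h.1.1
  obtain ⟨g, hg⟩ := h.exists_conj_le (isBPOf_of_subsection hM hx hind)
  obtain ⟨g', hg'⟩ := h.exists_conj_le (isBPOf_of_subsection hM hx' hind')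
  rw [cS_zpowers] at hg hg'
  have hu : g * x * g⁻¹ ∈ P := hg.le (Subgroup.mem_zpowers _)
  have hu' : g' * x' * g'⁻¹ ∈ P := hg'.le (Subgroup.mem_zpowers _)
  have hne : ∀ {a y : G}, y ≠ 1 → a * y * a⁻¹ ≠ 1 := by
    intro a y hy h0
    apply hy
    calc y = a⁻¹ * (a * y * a⁻¹) * a := by group
      _ = 1 := by rw [h0]; group
  obtain ⟨s, hs, hsu⟩ := htrans _ hu (hne hx1) _ hu' (hne hx1')
  have h1 := hg.cj s
  simp only at h1
  rw [cS_zpowers, hsu, cS_eq_self_of_mem_Nn hs.1, hs.2] at h1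
  have h2 := he.subpair_unique _ _ _ _ rfl h1 hg'
  -- the conjugating element
  have hconj : (g'⁻¹ * s * g) * x * (g'⁻¹ * s * g)⁻¹ = x' := by
    calc (g'⁻¹ * s * g) * x * (g'⁻¹ * s * g)⁻¹ = g'⁻¹ * (s * (g * x * g⁻¹) * s⁻¹) * g' := by group
      _ = x' := by rw [hsu]; group
  have hxx : x = x' := by
    obtain ⟨y, _, hy⟩ := hXrep x hx
    rw [hy x ⟨hxX, IsConj.refl x⟩, hy x' ⟨hxX', isConj_iff.2 ⟨_, hconj⟩⟩]
  refine ⟨hxx, ?_⟩
  subst hxx
  have hcen : g'⁻¹ * s * g ∈ Subgroup.centralizer ({x} : Set G) := by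
    rw [Subgroup.mem_centralizer_iff]
    intro v hv
    rw [Set.mem_singleton_iff] at hv
    rw [hv]
    calc x * (g'⁻¹ * s * g) = ((g'⁻¹ * s * g) * x * (g'⁻¹ * s * g)⁻¹) * (g'⁻¹ * s * g) := by
          rw [hconj]
      _ = (g'⁻¹ * s * g) * x := by group
  have h3 : cj (g'⁻¹ * s * g) (bl hM (Subgroup.centralizer ({x} : Set G)) b)
      = bl hM (Subgroup.centralizer ({x} : Set G)) b := (isBlk_bl hM _ hind.1).inZ.2 _ hcen
  rw [← h3, mul_assoc, ← GA.cj_cj, ← GA.cj_cj, h2, GA.cj_inv_cj]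

open Classical in
include hM in
/-- **free and transitive inertial action**: `k(B) = l(B) + 1` -/
theorem card_eq_rank_add_one {B : Set (IrrCharacter G)} (hB : IsPBlock M B) {P : Subgroup G}
    {e : GA (Kr hM) G} (h : IsMaxBP p (blkR hM B) P e)
    (hPD : IsDefectGroup p M B P) (hP1 : P ≠ ⊥)
    (hab : ∀ x ∈ P, ∀ y ∈ P, x * y = y * x)
    (hfree : ∀ g ∈ stabP P e, ∀ x ∈ P, x ≠ 1 → g * x * g⁻¹ = x → g ∈ Cn P)
    (htrans : ∀ u ∈ P, u ≠ 1 → ∀ u' ∈ P, u' ≠ 1 → ∃ s ∈ stabP P e, s * u * s⁻¹ = u') :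
    Nat.card B = blockRank p B + 1 := by
  have hfin : ∀ x : G, Finite (IrrCharacter (Subgroup.centralizer ({x} : Set G))) :=
    fun x => finite_irrCharacter
  haveI hfs : ∀ x : G, Fintype (Set (IrrCharacter (Subgroup.centralizer ({x} : Set G)))) :=
    fun x => Fintype.ofFinite _
  obtain ⟨X, hX, hXrep⟩ := exists_pReps (G := G) p
  have h0 := card_block_eq hM B hB X hX hXrep
  have h1X : (1 : G) ∈ X := by
    obtain ⟨x, ⟨hx1, hx2⟩, -⟩ := hXrep 1 ⟨0, by simp⟩
    rwa [isConj_one_right.1 hx2] at hx1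
  obtain ⟨u, hu, hu1⟩ : ∃ q ∈ P, q ≠ 1 := by
    obtain ⟨q, hq⟩ := Subgroup.ne_bot_iff_exists_ne_one.1 hP1
    exact ⟨(q : G), q.2, fun h => hq (Subtype.ext h)⟩
  obtain ⟨x0, hx0X, g, hg, f, _, b0, hind0, _⟩ := exists_data hM hB h X hXrep u hu
  have hx01 : x0 ≠ 1 := by
    intro h0
    apply hu1
    calc u = g⁻¹ * (g * u * g⁻¹) * g := by group
      _ = 1 := by rw [hg, h0]; group
  rw [← Finset.add_sum_erase X _ h1X, sum_induced_central hM B hB (Subgroup.one_mem _)
    ⟨0, by simp⟩, Finset.sum_eq_single x0, Finset.sum_eq_single b0, if_pos hind0,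
    (subsection_rank_one_of_free hM h hPD hab hfree (hX x0 hx0X) hx01 hind0).2] at h0
  · exact_mod_cast h0
  · intro b _ hb
    rw [if_neg]
    intro hind
    apply hb
    exact bl_injective hM _ hind.1 hind0.1 (subsection_unique_of_trans hM h htrans X hXrep hx0X hx0X
      hx01 hx01 (hX x0 hx0X) (hX x0 hx0X) hind hind0).2
  · intro hb; exact absurd (Finset.mem_univ _) hb
  · intro x hx hxx0
    apply Finset.sum_eq_zero
    intro b _
    rw [if_neg]
    intro hind
    apply hxx0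
    have hxX := Finset.mem_of_mem_erase hx
    exact (subsection_unique_of_trans hM h htrans X hXrep hxX hx0X
      (Finset.ne_of_mem_erase hx) hx01 (hX x hxX) (hX x0 hx0X) hind hind0).1
  · intro hx
    exact absurd (Finset.mem_erase.2 ⟨hx01, hx0X⟩) hx

end Cfsg.Agent.Lib.Helper5
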