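import Cfsg.Agent.Lib.Helper5.InertSetup
import Cfsg.Agent.Lib.Helper5.AbNil

set_option autoImplicit false
set_option linter.unusedSectionVars false
set_option linter.style.haveILetI false
open Cfsg
open Cfsg.Agent.Lib.Helper20 Cfsg.Agent.Lib.Helper81 Cfsg.Agent.Lib.Helper80
open Cfsg.Agent.Lib.Helper80.GA

/-! Abelian defect groups with an inertial group acting freely: local blocks are nilpotent. -/

namespace Cfsg.Agent.Lib.Helper5

section GAside

variable {k : Type*} {G : Type*} [Field k] [Group G] [Fintype G]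
variable {p : ℕ} [Fact p.Prime] [CharP k p]

/-- if the inertial group acts freely on the abelian defect group `P`, the blocks of the
centralisers of nontrivial Brauer pairs are nilpotent -/
theorem nilB_centralizer_of_free {b e f : GA k G} {P Q : Subgroup G} (h : IsMaxBP p b P e)
    (hab : ∀ x ∈ P, ∀ y ∈ P, x * y = y * x) (hQf : IsBPOf p b Q f) (hQ1 : Q ≠ ⊥)
    (hfree : ∀ g ∈ stabP P e, ∀ x ∈ P, x ≠ 1 → g * x * g⁻¹ = x → g ∈ Cn P)
    [Fintype (Cn Q)] : NilB p (rst (Cn Q) f) := by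
  intro R' g' hR x' hx' _
  have hns := hQf.1.nsub_of_centralizer hR
  have hb := hns.isBPOf_up hQf
  have hxQ : (x' : G) ∈ Cn Q := x'.2
  have hxR : (x' : G) ∈ Nn (up (Cn Q) R') := by
    have : (x' : G) ∈ up (Cn Q) (Nn R') := (coe_mem_up _).2 hx'.1
    rw [up_Nn] at this
    exact this.2
  have hx : (x' : G) ∈ stabP (Q ⊔ up (Cn Q) R') (emb (Cn Q) g') := by
    refine ⟨mem_Nn_of_cS_eq ?_, ?_⟩
    · rw [cS_sup, cS_eq_self_of_mem_Nn (Cn_le_Nn Q hxQ), cS_eq_self_of_mem_Nn hxR]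
    · rw [← emb_cj, hx'.2]
  obtain ⟨y, hy⟩ := h.exists_conj_le hb
  have h1 : y * (x' : G) * y⁻¹ ∈ stabP (cS y (Q ⊔ up (Cn Q) R')) (cj y (emb (Cn Q) g')) := by
    rw [← cS_stabP, mem_cS]
    simpa [mul_assoc] using hx
  obtain ⟨t, ht, c, hc, htc⟩ := h.abelian_factor hab hy h1
  obtain ⟨q, hq, hq1⟩ : ∃ q ∈ Q, q ≠ 1 := by
    obtain ⟨q, hq⟩ := Subgroup.ne_bot_iff_exists_ne_one.1 hQ1
    exact ⟨(q : G), q.2, fun h => hq (Subtype.ext h)⟩
  have hq' : y * q * y⁻¹ ∈ cS y (Q ⊔ up (Cn Q) R') := by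
    rw [mem_cS]
    have : y⁻¹ * (y * q * y⁻¹) * y = q := by group
    rw [this]
    exact (le_sup_left : Q ≤ Q ⊔ up (Cn Q) R') hq
  have hqP : y * q * y⁻¹ ∈ P := hy.le hq'
  have hq1' : y * q * y⁻¹ ≠ 1 := by
    intro h0
    apply hq1
    have : q = y⁻¹ * (y * q * y⁻¹) * y := by group
    rw [this, h0]; group
  have hcq : (y * q * y⁻¹) * c = c * (y * q * y⁻¹) := (mem_Cn.1 hc) _ hq'
  have hxq : q * (x' : G) = (x' : G) * q := (mem_Cn.1 hxQ) q hq
  have htfix : t * (y * q * y⁻¹) * t⁻¹ = y * q * y⁻¹ := by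
    have ht' : t = y * (x' : G) * y⁻¹ * c⁻¹ := by rw [htc]; group
    have e1 : c⁻¹ * (y * q * y⁻¹) * c = y * q * y⁻¹ := by
      rw [mul_assoc, hcq]; group
    calc t * (y * q * y⁻¹) * t⁻¹
        = y * (x' : G) * y⁻¹ * (c⁻¹ * (y * q * y⁻¹) * c) * (y * (x' : G)⁻¹ * y⁻¹) := by
          rw [ht']; group
      _ = y * ((x' : G) * q) * (x' : G)⁻¹ * y⁻¹ := by rw [e1]; group
      _ = y * q * y⁻¹ := by rw [← hxq]; group
  have htC : t ∈ Cn P := hfree t ht _ hqP hq1' htfix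
  have h2 : y * (x' : G) * y⁻¹ ∈ Cn (cS y (Q ⊔ up (Cn Q) R')) := by
    rw [htc]
    exact (Cn _).mul_mem (Cn_anti hy.le htC) hc
  rw [← cS_Cn, mem_cS] at h2
  have h3 : (x' : G) ∈ Cn (Q ⊔ up (Cn Q) R') := by simpa [mul_assoc] using h2
  have h4 : (x' : G) ∈ up (Cn Q) (Cn R') := by
    rw [up_Cn]
    exact ⟨hxQ, Cn_anti le_sup_right h3⟩
  exact (coe_mem_up _).1 h4

end GAside

section Blocks

variable {p : ℕ} [Fact p.Prime] {M : Ideal AlgInt} (hM : IsPModular p M)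
  {G : Type*} [Group G] [Fintype G]

include hM in
/-- block version: `(Q,f)` a nontrivial `B`-Brauer pair, `B` with abelian defect group `P` on which
the inertial group acts freely: `f` is nilpotent with `l(f) = 1`. -/
theorem local_nilpotent_of_free {B : Set (IrrCharacter G)} {P : Subgroup G}
    {e : GA (Kr hM) G} (h : IsMaxBP p (blkR hM B) P e)
    (hab : ∀ x ∈ P, ∀ y ∈ P, x * y = y * x)
    (hfree : ∀ g ∈ stabP P e, ∀ x ∈ P, x ≠ 1 → g * x * g⁻¹ = x → g ∈ Cn P)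
    {Q : Subgroup G} (hQ1 : Q ≠ ⊥) {f : Set (IrrCharacter (Cn Q))} (hf : IsPBlock M f)
    (hQf : IsBPOf p (blkR hM B) Q (bl hM (Cn Q) f)) :
    IsNilpotentBlock p M f := by
  haveI : Fintype (Cn Q) := Fintype.ofFinite _
  have h3 := nilB_centralizer_of_free h hab hQf hQ1 hfree
  rw [bl_eq_emb, rst_emb] at h3
  exact (isNilpotentBlock_iff hM hf).2 h3

include hM in
/-- if one defect group is abelian, all are -/
theorem abelian_all_defect {B : Set (IrrCharacter G)} (hB : IsPBlock M B) {P : Subgroup G}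
    (hPD : IsDefectGroup p M B P) (hab : ∀ x ∈ P, ∀ y ∈ P, x * y = y * x) :
    ∀ D : Subgroup G, IsDefectGroup p M B D → ∀ x ∈ D, ∀ y ∈ D, x * y = y * x := by
  intro D hD x hx y hy
  obtain ⟨g, _, rfl⟩ := (isDef_of_isDefectGroup hM hB hPD).exists_conj
    (isDef_of_isDefectGroup hM hB hD)
  rw [mem_cS] at hx hy
  have := hab _ hx _ hy
  have e1 : x * y = g * ((g⁻¹ * x * g) * (g⁻¹ * y * g)) * g⁻¹ := by group
  rw [e1, this]; group

end Blocks

end Cfsg.Agent.Lib.Helper5
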