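import Cfsg.Agent.Lib.Helper80.GAIndT
import Cfsg.Agent.Lib.Helper80.GATrans2
import Cfsg.Agent.Lib.Helper80.GANilB
import Cfsg.Agent.Lib.Helper80.GAStab
import Cfsg.Agent.Lib.Helper5.CycAct

set_option autoImplicit false
set_option linter.unusedSectionVars false
set_option linter.style.haveILetI false
open Cfsg
open Cfsg.Agent.Lib.Helper20 Cfsg.Agent.Lib.Helper81 Cfsg.Agent.Lib.Helper80
open Cfsg.Agent.Lib.Helper80.GA

/-! The inertial group of a maximal Brauer pair, from the hypotheses of the statements. -/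

namespace Cfsg.Agent.Lib.Helper5

variable {p : ℕ} [Fact p.Prime] {M : Ideal AlgInt} (hM : IsPModular p M)
  {G : Type*} [Group G] [Fintype G]

theorem inert_isMaxBP {B : Set (IrrCharacter G)} {P : Subgroup G}
    (hPD : IsDefectGroup p M B P) {c : Set (IrrCharacter (Cn P))}
    (hc : IsInducedBlock M (Cn P) c B) : IsMaxBP p (blkR hM B) P (bl hM (Cn P) c) :=
  isMaxBP_of_isMaximalBrauerPair hM (isMaximalBrauerPair_of_isInducedBlock hM hPD hc)

include hM in
/-- `p`-subgroups of the inertial group of a maximal pair with abelian defect group centralise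
the defect group -/
theorem inert_pSub {B : Set (IrrCharacter G)} {P : Subgroup G}
    (hPD : IsDefectGroup p M B P) (hab : ∀ x ∈ P, ∀ y ∈ P, x * y = y * x)
    {c : Set (IrrCharacter (Cn P))}
    (hc : IsInducedBlock M (Cn P) c B) {T : Subgroup G}
    (hT : ∀ g : G, g ∈ T ↔ (g ∈ Subgroup.normalizer (P : Set G) ∧
      StabilizesBlock (Subgroup.centralizer (P : Set G)) c g)) :
    ∀ S : Subgroup G, S ≤ T → IsPGroup p S → S ≤ Subgroup.centralizer (P : Set G) := by
  intro S hS hSp
  have hmax := inert_isMaxBP hM hPD hc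
  have hTe : T = stabP P (bl hM (Cn P) c) := eq_stabP_of_forall hM hc.1 hT
  have he : IsBP p P (bl hM (Cn P) c) := hmax.1.1
  have hN : P ⊔ Cn P ≤ stabP P (bl hM (Cn P) c) :=
    sup_le (le_stabP he.2.inZ) (Cn_le_stabP he.2.inZ)
  have hblk : IsBlk (P ⊔ Cn P) (bl hM (Cn P) c) :=
    he.isBlk_of_fix le_sup_left le_sup_right (hN.trans (stabP_le_Nn P _))
      ((fixBy_stabP P _).mono hN)
  have h1 := hmax.pSubgroup_le (split_sub hM hblk) (hTe ▸ hS) hSp
  exact h1.trans (sup_le (le_Cn_of_abelian hab le_rfl) le_rfl)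

theorem comm_of_isCyclic {P : Subgroup G} (hcyc : IsCyclic P) :
    ∀ x ∈ P, ∀ y ∈ P, x * y = y * x := by
  intro x hx y hy
  letI := IsCyclic.commGroup (α := P)
  have := mul_comm (⟨x, hx⟩ : P) ⟨y, hy⟩
  exact congrArg Subtype.val this

end Cfsg.Agent.Lib.Helper5
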