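import Cfsg.Agent.Lib.Helper5.FreeCount
import Cfsg.Agent.Lib.Helper81.MajorSetup
import Cfsg.Agent.Lib.Helper81.SubsecVal

set_option autoImplicit false
set_option linter.unusedSectionVars false
set_option linter.style.haveILetI false
open Cfsg
open scoped ComplexConjugate
open Cfsg.Agent.Lib.Helper20 Cfsg.Agent.Lib.Helper81 Cfsg.Agent.Lib.Helper80
open Cfsg.Agent.Lib.Helper80.GA

/-! Characters of a block with abelian defect group `P` do not vanish on the `p`-section of any
element of `P` (Brauer, major subsections). -/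

namespace Cfsg.Agent.Lib.Helper5

variable {p : ℕ} [Fact p.Prime] {M : Ideal AlgInt} (hM : IsPModular p M)
  {G : Type*} [Group G] [Fintype G]

include hM in
/-- every element of an abelian defect group carries a major subsection -/
theorem exists_major_subsection {B : Set (IrrCharacter G)} (hB : IsPBlock M B) {P : Subgroup G}
    (hPD : IsDefectGroup p M B P) (hab : ∀ x ∈ P, ∀ y ∈ P, x * y = y * x) {x : G} (hx : x ∈ P) :
    ∃ β : Set (IrrCharacter (Subgroup.centralizer ({x} : Set G))),
      (∃ n, SubsecData p M (Subgroup.centralizer ({x} : Set G)) x n β B) ∧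
        blockDefect p β = blockDefect p B := by
  have hdef : IsDef p ⊤ (blkR hM B) P := isDef_of_isDefectGroup hM hB hPD
  obtain ⟨e, hmax⟩ := (isBlk_blkR hM hB).exists_isMaxBP_of_isDef hdef
  have he : IsBP p P e := hmax.1.1
  obtain ⟨f, hf, hle⟩ := he.exists_subpair' (Q := Subgroup.zpowers x)
    (by rw [Subgroup.zpowers_le]; exact hx)
  have hbp : IsBPOf p (blkR hM B) (Subgroup.zpowers x) f := (hle.isBPOf_iff).1 hmax.1
  have hxp : ∃ k : ℕ, orderOf x = p ^ k := by
    obtain ⟨k, hk⟩ := he.1 ⟨x, hx⟩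
    have h1 : x ^ (p ^ k) = 1 := by simpa using congrArg Subtype.val hk
    obtain ⟨m, _, hm⟩ := (Nat.dvd_prime_pow Fact.out).1 (orderOf_dvd_of_pow_eq_one h1)
    exact ⟨m, hm⟩
  have hblk : IsBlk (Subgroup.centralizer ({x} : Set G)) f := by
    rw [centralizer_singleton_eq]; exact hbp.1.2
  obtain ⟨β, hβ, hβeq⟩ := exists_block_of_isBlk_sub hM _ hblk
  have hind : IsInducedBlock M (Subgroup.centralizer ({x} : Set G)) β B := by
    rw [isInducedBlock_centralizer_iff hM hxp hβ hB, ← hβeq]
    exact hbp.2.2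
  have hPle : P ≤ Subgroup.centralizer ({x} : Set G) := by
    rw [centralizer_singleton_eq]
    exact le_Cn_of_abelian hab (by rw [Subgroup.zpowers_le]; exact hx)
  have hdefβ : IsDef p (Subgroup.centralizer ({x} : Set G))
      (bl hM (Subgroup.centralizer ({x} : Set G)) β) P := by
    rw [← hβeq, centralizer_singleton_eq]
    exact hmax.abelian_isDef_Cn hab hle
  have hβD := (isDefectGroup_sub_iff hM _ hβ hPle).2 hdefβ
  exact ⟨β, major_setup hM hB hPD hx (fun d hd => hab d hd x hx) hind hβD⟩

include hM in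
/-- **nonvanishing**: `χ ∈ B` does not vanish identically on `x · C_G(x)_{p'}`, `x ∈ P` -/
theorem exists_ne_zero_section {B : Set (IrrCharacter G)} (hB : IsPBlock M B) {P : Subgroup G}
    (hPD : IsDefectGroup p M B P) (hab : ∀ x ∈ P, ∀ y ∈ P, x * y = y * x) {x : G} (hx : x ∈ P)
    {χ : IrrCharacter G} (hχ : χ ∈ B) :
    ∃ s : G, IsPRegular p s ∧ (χ : G → ℂ) (x * s) ≠ 0 := by
  classical
  by_contra hcon
  push Not at hcon
  obtain ⟨β, ⟨n, D⟩, hd⟩ := exists_major_subsection hM hB hPD hab hx
  obtain ⟨χ₀, hχ₀, hmin⟩ := exists_minDeg (p := p) (isPBlock_nonempty hM hB)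
  have h0 : blockHeight p B (χ₀ : G → ℂ) = 0 := (blockHeight_eq_zero_iff hχ₀).2 hmin
  haveI : Fintype (Subgroup.centralizer ({x} : Set G)) := Fintype.ofFinite _
  obtain ⟨w, _, hw, heq⟩ := major_unit D hd hχ₀ hχ h0
  have hzero : mS p (Subgroup.centralizer ({x} : Set G)) β x (χ₀ : G → ℂ) (χ : G → ℂ) = 0 := by
    unfold mS classInner
    rw [Finset.sum_eq_zero, mul_zero]
    intro g _
    rw [pRegularPart_eq]
    by_cases hg : IsPRegular p g
    · have h1 : Th (Subgroup.centralizer ({x} : Set G)) β x (χ : G → ℂ) g = 0 := by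
        unfold Th
        rw [blockPart_regular_eq hM β D.hind.1 _ hg, Finset.sum_eq_zero, mul_zero]
        intro v _
        rw [pRegularPart_eq]
        by_cases hv : IsPRegular p v
        · simp only [if_pos hv]
          rw [hcon (v : G) (by unfold IsPRegular at hv ⊢; rwa [Subgroup.orderOf_coe]), mul_zero]
        · simp only [if_neg hv, mul_zero]
      rw [h1, map_zero, mul_zero]
    · simp only [if_neg hg, zero_mul]
  rw [hzero, mul_zero] at heq
  have hp0 : (p : ℂ) ≠ 0 := by exact_mod_cast (Fact.out : p.Prime).ne_zero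
  have hw0 : w = 0 := by
    rcases mul_eq_zero.1 heq.symm with h | h
    · exact absurd h (pow_ne_zero _ hp0)
    · exact h
  apply hw
  rw [hw0]
  exact memLocalIdeal_zero hM

end Cfsg.Agent.Lib.Helper5
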